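import Mathlib

/-! Transfer of a sign character from the centralizer of the central involution of an extraspecial subgroup. -/
set_option autoImplicit false
set_option linter.unusedSectionVars false

open scoped Classical commutatorElement
open MulAction

namespace Cfsg.Agent.Lib.ExtraTransfer

variable {G : Type*} [Group G]

/-- An extraspecial subgroup `E`, self-centralizing, normalized by the centralizer of its central involution. -/
structure Setup (z : G) (E : Subgroup G) : Prop where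
  le : E ≤ Subgroup.centralizer ({z} : Set G)
  norm : ∀ h ∈ Subgroup.centralizer ({z} : Set G), ∀ e ∈ E, h * e * h⁻¹ ∈ E
  zsq : z * z = 1
  sq : ∀ e ∈ E, e * e = 1 ∨ e * e = z
  comm : ∀ a ∈ E, ∀ b ∈ E, ⁅a, b⁆ = 1 ∨ ⁅a, b⁆ = z
  exists_comm : ∃ a ∈ E, ∃ b ∈ E, ⁅a, b⁆ = z
  cen : ∀ x : G, (∀ e ∈ E, x * e = e * x) → x = 1 ∨ x = z

variable {z : G} {E : Subgroup G}

/-- The centralizer of `z`. -/
abbrev Cz (z : G) : Subgroup G := Subgroup.centralizer ({z} : Set G)

theorem Setup.mem {x : G} : x ∈ (Cz z) ↔ x * z = z * x := by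
  rw [Subgroup.mem_centralizer_singleton_iff]

theorem Setup.z_mem (S : Setup z E) : z ∈ E := by
  obtain ⟨a, ha, b, hb, h⟩ := S.exists_comm
  rw [← h, commutatorElement_def]
  exact E.mul_mem (E.mul_mem (E.mul_mem ha hb) (E.inv_mem ha)) (E.inv_mem hb)

theorem Setup.comm_z (S : Setup z E) {e : G} (he : e ∈ E) : z * e = e * z :=
  (Setup.mem.mp (S.le he)).symm

theorem Setup.comm_abel (S : Setup z E) (x : ↥(commutator ↥E)) : ((x : ↥E) : G) = 1 ∨ ((x : ↥E) : G) = z := by
  let K : Subgroup ↥E :=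
    { carrier := {w | (w : G) = 1 ∨ (w : G) = z}
      one_mem' := Or.inl rfl
      mul_mem' := by
        rintro a b (ha | ha) (hb | hb) <;> simp only [Set.mem_ofPred_eq, Subgroup.coe_mul, ha, hb, S.zsq, one_mul, mul_one, true_or, or_true]
      inv_mem' := by
        rintro a (ha | ha)
        · exact Or.inl (by simp [ha])
        · exact Or.inr (by simp [ha, inv_eq_of_mul_eq_one_right S.zsq]) }
  have : commutator ↥E ≤ K := by
    rw [commutator_def, Subgroup.commutator_le]
    intro a _ b _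
    exact S.comm a a.2 b b.2
  exact this x.2

/-- `z` as an element of the commutator subgroup. -/
theorem Setup.z_comm (S : Setup z E) : (⟨z, S.z_mem⟩ : ↥E) ∈ commutator ↥E := by
  obtain ⟨a, ha, b, hb, h⟩ := S.exists_comm
  have : (⟨z, S.z_mem⟩ : ↥E) = ⁅(⟨a, ha⟩ : ↥E), ⟨b, hb⟩⁆ := Subtype.ext h.symm
  rw [this, commutator_def]
  exact Subgroup.commutator_mem_commutator (Subgroup.mem_top _) (Subgroup.mem_top _)

theorem Setup.ab_eq_one (S : Setup z E) (d : ↥E) :
    Abelianization.of d = 1 ↔ (d : G) = 1 ∨ (d : G) = z := by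
  constructor
  · intro h
    have : d ∈ commutator ↥E := (QuotientGroup.eq_one_iff d).mp h
    exact S.comm_abel ⟨d, this⟩
  · rintro (h | h)
    · rw [show d = 1 from Subtype.ext h, map_one]
    · rw [show d = ⟨z, S.z_mem⟩ from Subtype.ext h]
      exact (QuotientGroup.eq_one_iff _).mpr S.z_comm

theorem Setup.ab_sq (S : Setup z E) (w : Abelianization ↥E) : w * w = 1 := by
  obtain ⟨d, rfl⟩ := QuotientGroup.mk_surjective w
  change Abelianization.of d * Abelianization.of d = 1
  rw [← map_mul]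
  exact (S.ab_eq_one _).mpr (S.sq d d.2)

/-- A sign character of the centralizer that kills square roots of commutators. -/
structure Sign (z : G) where
  ψ : ↥(Subgroup.centralizer ({z} : Set G)) →* ℂˣ
  sq : ∀ h, ψ h * ψ h = 1
  root : ∀ h, h * h ∈ commutator ↥(Subgroup.centralizer ({z} : Set G)) → ψ h = 1

/-- extension by one. -/
noncomputable def Sign.ext (s : Sign z) (x : G) : ℂˣ := if h : x ∈ (Cz z) then s.ψ ⟨x, h⟩ else 1

theorem Sign.ext_mul (s : Sign z) {x y : G} (hx : x ∈ (Cz z)) (hy : y ∈ (Cz z)) :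
    s.ext (x * y) = s.ext x * s.ext y := by
  simp only [Sign.ext, dif_pos hx, dif_pos hy, dif_pos (mul_mem hx hy)]
  rw [← map_mul]; rfl

theorem Sign.ext_one (s : Sign z) : s.ext 1 = 1 := by
  simp only [Sign.ext, dif_pos (one_mem (Cz z))]
  exact s.ψ.map_one

theorem Sign.ext_inv (s : Sign z) {x : G} (hx : x ∈ (Cz z)) : s.ext x⁻¹ = (s.ext x)⁻¹ := by
  apply eq_inv_of_mul_eq_one_left
  rw [← s.ext_mul (inv_mem hx) hx, inv_mul_cancel, s.ext_one]

theorem Sign.ext_sq (s : Sign z) (x : G) : s.ext x * s.ext x = 1 := by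
  unfold Sign.ext; split
  · exact s.sq _
  · simp

theorem Sign.ext_invol (s : Sign z) {x : G} (hx : x * x = 1) : s.ext x = 1 := by
  unfold Sign.ext; split
  · rename_i h
    refine s.root _ ?_
    rw [show (⟨x, h⟩ : ↥(Cz z)) * ⟨x, h⟩ = 1 from Subtype.ext hx]
    exact one_mem _
  · rfl

/-- The conjugate-by-representative restriction is trivial. -/
def Triv (E : Subgroup G) (s : Sign z) (r : G) : Prop :=
  ∀ e ∈ E, r⁻¹ * e * r ∈ (Cz z) → s.ext (r⁻¹ * e * r) = 1

/-- Product lemma. -/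
theorem exists_prod (s : Sign z) (r : G) {ι : Type*} (P : Finset ι) (c : ι → ↥E)
    (hc : ∀ i ∈ P, r⁻¹ * (c i : G) * r ∈ (Cz z)) :
    ∃ d : ↥E, r⁻¹ * (d : G) * r ∈ (Cz z) ∧ s.ext (r⁻¹ * (d : G) * r) = ∏ i ∈ P, s.ext (r⁻¹ * (c i : G) * r) ∧
      Abelianization.of d = ∏ i ∈ P, Abelianization.of (c i) := by
  induction P using Finset.induction with
  | empty => exact ⟨1, by simp [one_mem], by simp [s.ext_one], by simp⟩
  | @insert a Q ha ih =>
    obtain ⟨d, h1, h2, h3⟩ := ih fun i hi => hc i (Finset.mem_insert_of_mem hi)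
    have ha' := hc a (Finset.mem_insert_self a Q)
    have e : r⁻¹ * ((c a * d : ↥E) : G) * r = (r⁻¹ * (c a : G) * r) * (r⁻¹ * (d : G) * r) := by
      simp [mul_assoc]
    refine ⟨c a * d, ?_, ?_, ?_⟩
    · rw [e]; exact mul_mem ha' h1
    · rw [e, s.ext_mul ha' h1, h2, Finset.prod_insert ha]
    · rw [map_mul, h3, Finset.prod_insert ha]

/-- A good system of representatives on a set of cosets. -/
def Good (E : Subgroup G) (s : Sign z) (P : Finset (G ⧸ (Cz z))) (t : G ⧸ (Cz z) → G) : Prop :=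
  (∀ p ∈ P, (t p : G ⧸ (Cz z)) = p) ∧ ∃ r : G, ∃ e : G ⧸ (Cz z) → ↥E, (∀ p ∈ P, t p = (e p : G) * r) ∧
    ((∏ p ∈ P, Abelianization.of (e p)) = 1 ∨ Triv E s r)

theorem sign_pow_even {u : ℂˣ} (hu : u * u = 1) {n : ℕ} (hn : Even n) : u ^ n = 1 := by
  obtain ⟨m, rfl⟩ := hn
  rw [pow_add, ← mul_pow, hu, one_pow]

theorem diff_aux (S : Setup z E) (s : Sign z) {P : Finset (G ⧸ (Cz z))} (hne : P.Nonempty) (heven : Even P.card)
    {t t' : G ⧸ (Cz z) → G} (ht : ∀ p ∈ P, (t p : G ⧸ (Cz z)) = p) (ht' : ∀ p ∈ P, (t' p : G ⧸ (Cz z)) = p)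
    {r r' : G} {e a : G ⧸ (Cz z) → ↥E} (he : ∀ p ∈ P, t p = (e p : G) * r) (ha : ∀ p ∈ P, t' p = (a p : G) * r')
    (h : Triv E s r ∨ ((∏ p ∈ P, Abelianization.of (e p)) = 1 ∧ (∏ p ∈ P, Abelianization.of (a p)) = 1)) :
    ∏ p ∈ P, s.ext ((t p)⁻¹ * t' p) = 1 := by
  obtain ⟨p0, hp0⟩ := hne
  set h0 : G := (t p0)⁻¹ * t' p0 with hh0
  have hh0m : h0 ∈ (Cz z) := QuotientGroup.eq.mp ((ht p0 hp0).trans (ht' p0 hp0).symm)
  set e0 : ↥E := (a p0)⁻¹ * e p0 with he0
  have hr' : r' = (e0 : G) * r * h0 := by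
    rw [hh0, he p0 hp0, ha p0 hp0, he0]
    simp [mul_assoc]
  set c : G ⧸ (Cz z) → ↥E := fun p => (e p)⁻¹ * (a p * e0) with hc
  have hterm : ∀ p ∈ P, (t p)⁻¹ * t' p = r⁻¹ * (c p : G) * r * h0 := fun p hp => by
    rw [he p hp, ha p hp, hr', hc]
    simp [mul_assoc]
  have hcm : ∀ p ∈ P, r⁻¹ * (c p : G) * r ∈ (Cz z) := fun p hp => by
    have := QuotientGroup.eq.mp ((ht p hp).trans (ht' p hp).symm)
    rw [hterm p hp] at this
    exact (Subgroup.mul_mem_cancel_right _ hh0m).mp this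
  rw [Finset.prod_congr rfl fun p hp => by rw [hterm p hp, s.ext_mul (hcm p hp) hh0m],
    Finset.prod_mul_distrib, Finset.prod_const, sign_pow_even (s.ext_sq h0) heven, mul_one]
  rcases h with h | ⟨h1, h2⟩
  · exact Finset.prod_eq_one fun p hp => h _ (c p).2 (hcm p hp)
  · obtain ⟨d, hd, hd2, hd3⟩ := exists_prod s r P c hcm
    have hd1 : Abelianization.of d = 1 := by
      rw [hd3]
      simp only [hc, map_mul, map_inv]
      rw [Finset.prod_mul_distrib, Finset.prod_mul_distrib, Finset.prod_inv_distrib, h1, h2, Finset.prod_const]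
      simp only [inv_one, one_mul]
      obtain ⟨m, hm⟩ := heven
      rw [hm, pow_add, ← mul_pow, S.ab_sq, one_pow]
    rw [← hd2]
    refine s.ext_invol ?_
    rcases (S.ab_eq_one d).mp hd1 with h' | h'
    · simp [h']
    · rw [h']
      calc r⁻¹ * z * r * (r⁻¹ * z * r) = r⁻¹ * (z * z) * r := by simp [mul_assoc]
        _ = 1 := by simp [S.zsq]

theorem good_diff (S : Setup z E) (s : Sign z) {P : Finset (G ⧸ (Cz z))} (hne : P.Nonempty) (heven : Even P.card)
    {t t' : G ⧸ (Cz z) → G} (h : Good E s P t) (h' : Good E s P t') :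
    ∏ p ∈ P, s.ext ((t p)⁻¹ * t' p) = 1 := by
  obtain ⟨ht, r, e, he, hr⟩ := h
  obtain ⟨ht', r', a, ha, hr'⟩ := h'
  rcases hr with hr | hr
  · rcases hr' with hr' | hr'
    · exact diff_aux S s hne heven ht ht' he ha (Or.inr ⟨hr, hr'⟩)
    · have h1 := diff_aux S s hne heven ht' ht ha he (Or.inl hr')
      calc ∏ p ∈ P, s.ext ((t p)⁻¹ * t' p) = ∏ p ∈ P, (s.ext ((t' p)⁻¹ * t p))⁻¹ := by
            refine Finset.prod_congr rfl fun p hp => ?_
            rw [← s.ext_inv (QuotientGroup.eq.mp ((ht' p hp).trans (ht p hp).symm)), mul_inv_rev, inv_inv]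
        _ = 1 := by rw [Finset.prod_inv_distrib, h1, inv_one]
  · exact diff_aux S s hne heven ht ht' he ha (Or.inl hr)

theorem good_smul (S : Setup z E) (s : Sign z) {x : G} (hx : x ∈ (Cz z)) {P : Finset (G ⧸ (Cz z))} {t : G ⧸ (Cz z) → G}
    (h : Good E s P t) :
    Good E s (P.image (x • ·)) (fun p => x * t (x⁻¹ • p)) := by
  obtain ⟨ht, r, e, he, hr⟩ := h
  have hback : ∀ p ∈ P.image (x • ·), x⁻¹ • p ∈ P := fun p hp => by
    obtain ⟨q, hq, rfl⟩ := Finset.mem_image.mp hp
    simpa using hq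
  let cj : ↥E →* ↥E :=
    { toFun := fun d => ⟨x * d * x⁻¹, S.norm x hx d d.2⟩
      map_one' := Subtype.ext (by simp)
      map_mul' := fun _ _ => Subtype.ext (by simp [mul_assoc]) }
  refine ⟨fun p hp => ?_, x * r, fun p => cj (e (x⁻¹ • p)), fun p hp => ?_, ?_⟩
  · show ((x * t (x⁻¹ • p) : G) : G ⧸ Cz z) = p
    rw [← smul_eq_mul, ← MulAction.Quotient.smul_coe, ht _ (hback p hp), smul_inv_smul]
  · show x * t (x⁻¹ • p) = (x * (e (x⁻¹ • p) : G) * x⁻¹) * (x * r)
    rw [he _ (hback p hp)]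
    simp [mul_assoc]
  · rcases hr with hr | hr
    · left
      rw [Finset.prod_image (fun a _ b _ h => smul_left_cancel x h)]
      simp only [inv_smul_smul]
      calc ∏ p ∈ P, Abelianization.of (cj (e p)) = ∏ p ∈ P, Abelianization.map cj (Abelianization.of (e p)) := by
            simp [Abelianization.map_of]
        _ = 1 := by rw [← map_prod, hr, map_one]
    · right
      intro d hd hm
      have h1 : x⁻¹ * d * x ∈ E := by simpa using S.norm x⁻¹ (inv_mem hx) d hd
      have h2 : (x * r)⁻¹ * d * (x * r) = r⁻¹ * (x⁻¹ * d * x) * r := by simp [mul_assoc]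
      rw [h2] at hm ⊢
      exact hr _ h1 hm

/-- Product of all elements of an elementary abelian 2-group of order at least 4. -/
theorem prod_univ_eq_one {W : Type*} [CommGroup W] [Fintype W] (hsq : ∀ w : W, w * w = 1)
    (hcard : 2 < Fintype.card W) : ∏ w : W, w = 1 := by
  obtain ⟨v, hv⟩ : ∃ v : W, v ≠ 1 := Fintype.exists_ne_of_one_lt_card (by omega) 1
  let V : Subgroup W := Subgroup.zpowers v
  have hV : Nat.card V = 2 := by
    rw [Nat.card_zpowers]
    exact orderOf_eq_prime (by rw [pow_two]; exact hsq v) hv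
  have hW : IsPGroup 2 W := fun w => ⟨1, by rw [pow_one, pow_two]; exact hsq w⟩
  obtain ⟨k, hk⟩ := IsPGroup.iff_card.mp hW
  have hq : Nat.card (W ⧸ V) * 2 = 2 ^ k := by rw [← hk, ← hV, ← Subgroup.card_eq_card_quotient_mul_card_subgroup]
  have hk2 : 2 ≤ k := by
    by_contra hlt
    rw [Nat.card_eq_fintype_card] at hk
    interval_cases k <;> omega
  have heven : Even (Fintype.card (W ⧸ V)) := by
    rw [← Nat.card_eq_fintype_card]
    obtain ⟨j, rfl⟩ : ∃ j, k = j + 2 := ⟨k - 2, by omega⟩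
    exact ⟨2 ^ j, by rw [pow_add] at hq; omega⟩
  have hbij : Function.Bijective (fun qy : (W ⧸ V) × V => qy.1.out * (qy.2 : W)) := by
    constructor
    · rintro ⟨q, y⟩ ⟨q', y'⟩ h
      simp only at h
      have h1 := congrArg (QuotientGroup.mk (s := V)) h
      rw [QuotientGroup.mk_mul_of_mem _ y.2, QuotientGroup.mk_mul_of_mem _ y'.2, QuotientGroup.out_eq',
        QuotientGroup.out_eq'] at h1
      subst h1
      simpa using Subtype.ext_iff.mpr (mul_left_cancel h)
    · intro w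
      refine ⟨(w, ⟨(Quotient.out (w : W ⧸ V))⁻¹ * w, QuotientGroup.eq.mp (QuotientGroup.out_eq' _)⟩), ?_⟩
      simp
  rw [← Fintype.prod_bijective _ hbij (fun qy => qy.1.out * (qy.2 : W)) (fun w => w) fun _ => rfl]
  rw [Fintype.prod_prod_type]
  calc ∏ q : W ⧸ V, ∏ y : V, q.out * (y : W)
      = ∏ q : W ⧸ V, ((q.out * q.out) * ∏ y : V, (y : W)) := by
        refine Finset.prod_congr rfl fun q _ => ?_
        have hcv : Fintype.card V = 2 := by rw [← Nat.card_eq_fintype_card]; exact hV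
        rw [Finset.prod_mul_distrib, Finset.prod_const, Finset.card_univ, hcv, pow_two]
    _ = 1 := by
        simp only [hsq, one_mul]
        rw [Finset.prod_const, Finset.card_univ]
        obtain ⟨m, hm⟩ := heven
        rw [hm, pow_add, ← mul_pow, hsq, one_pow]

theorem mem_orbit_toFinset [Fintype (G ⧸ (Cz z))] {p q : G ⧸ (Cz z)} :
    q ∈ (orbit ↥E p).toFinset ↔ ∃ e : ↥E, (e : G) • p = q := by
  rw [Set.mem_toFinset]; exact Iff.rfl

theorem exists_good [Finite G] [Fintype (G ⧸ (Cz z))] (S : Setup z E) (hP : IsPGroup 2 ↥E) (hbig : 8 < Nat.card ↥E)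
    (s : Sign z) {p0 : G ⧸ (Cz z)} (hp0 : p0 ≠ ((1 : G) : G ⧸ (Cz z))) :
    Even (orbit ↥E p0).toFinset.card ∧ ∃ t, Good E s (orbit ↥E p0).toFinset t := by
  set P := (orbit ↥E p0).toFinset with hPdef
  set r := p0.out with hrdef
  have hr : (r : G ⧸ (Cz z)) = p0 := p0.out_eq
  obtain ⟨k, hk⟩ := hP.card_orbit p0
  have hPc : P.card = 2 ^ k := by rw [hPdef, Set.toFinset_card, ← Nat.card_eq_fintype_card, hk]
  have hk0 : k ≠ 0 := by
    intro hk0
    have hone : ∀ e : ↥E, (e : G) • p0 = p0 := by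
      intro e
      have h1 : P.card = 1 := by rw [hPc, hk0, pow_zero]
      obtain ⟨w, hw⟩ := Finset.card_eq_one.mp h1
      have a1 : (e : G) • p0 ∈ P := mem_orbit_toFinset.mpr ⟨e, rfl⟩
      have a2 : p0 ∈ P := mem_orbit_toFinset.mpr ⟨1, by simp⟩
      rw [hw, Finset.mem_singleton] at a1 a2
      rw [a1, a2]
    have hrz : r * z * r⁻¹ = 1 ∨ r * z * r⁻¹ = z := by
      refine S.cen _ fun e he => ?_
      have h := hone ⟨e, he⟩
      rw [← hr, MulAction.Quotient.smul_coe, smul_eq_mul] at h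
      have h1 := Setup.mem.mp (QuotientGroup.eq.mp h)
      simp only [Subgroup.coe_mk, mul_inv_rev, mul_assoc] at h1
      calc r * z * r⁻¹ * e = e * r * (r⁻¹ * (e⁻¹ * (r * z))) * r⁻¹ * e := by simp [mul_assoc]
        _ = e * r * (z * (r⁻¹ * (e⁻¹ * r))) * r⁻¹ * e := by rw [← h1]
        _ = e * (r * z * r⁻¹) := by simp [mul_assoc]
    rcases hrz with h | h
    · have hz1 : z = 1 := by simpa [mul_assoc] using congrArg (fun w => r⁻¹ * w * r) h
      refine hp0 ?_
      rw [← hr, QuotientGroup.eq, Setup.mem, hz1]; simp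
    · refine hp0 ?_
      have : r ∈ (Cz z) := Setup.mem.mpr (by
        calc r * z = r * z * r⁻¹ * r := by simp [mul_assoc]
          _ = z * r := by rw [h])
      rw [← hr, QuotientGroup.eq]
      simpa using inv_mem this
  have hev : Even P.card := by rw [hPc]; exact Nat.even_pow.mpr ⟨even_two, hk0⟩
  refine ⟨hev, ?_⟩
  have hlift : ∀ p : G ⧸ (Cz z), ∃ e : ↥E, p ∈ P → (e : G) • p0 = p := fun p => by
    by_cases hp : p ∈ P
    · obtain ⟨e, he⟩ := mem_orbit_toFinset.mp hp; exact ⟨e, fun _ => he⟩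
    · exact ⟨1, fun h => absurd h hp⟩
  choose e he using hlift
  have hcos : ∀ p ∈ P, (((e p : G) * r : G) : G ⧸ (Cz z)) = p := fun p hp => by
    rw [← smul_eq_mul, ← MulAction.Quotient.smul_coe, hr, he p hp]
  by_cases hT : Triv E s r
  · exact ⟨fun p => (e p : G) * r, hcos, r, e, fun p _ => rfl, Or.inr hT⟩
  let f : ↥E →* G :=
    { toFun := fun d => r⁻¹ * (d : G) * r
      map_one' := by simp
      map_mul' := fun _ _ => by simp [mul_assoc] }
  let C : Subgroup ↥E := ((Cz z)).comap f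
  have hC : ∀ d : ↥E, d ∈ C ↔ r⁻¹ * (d : G) * r ∈ (Cz z) := fun d => Iff.rfl
  -- abelian and containing z
  have hzC : (⟨z, S.z_mem⟩ : ↥E) ∈ C := by
    by_contra hzC
    refine hT fun d hd hm => s.ext_invol ?_
    have h2 : d * d = 1 := (S.sq d hd).resolve_right fun h => hzC <| by
      have := C.mul_mem ((hC ⟨d, hd⟩).mpr hm) ((hC ⟨d, hd⟩).mpr hm)
      convert this
      exact h.symm
    calc r⁻¹ * d * r * (r⁻¹ * d * r) = r⁻¹ * (d * d) * r := by simp [mul_assoc]
      _ = 1 := by simp [h2]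
  have hab : ∀ a ∈ C, ∀ b ∈ C, (⁅a, b⁆ : ↥E) = 1 := by
    intro a ha b hb
    by_contra hne
    refine hT fun d hd hm => ?_
    unfold Sign.ext
    rw [dif_pos hm]
    apply s.root
    rcases S.sq d hd with h | h
    · rw [show (⟨_, hm⟩ : ↥(Cz z)) * ⟨_, hm⟩ = 1 from Subtype.ext (by simp [mul_assoc, ← mul_assoc d d r, h])]
      exact one_mem _
    · have hz : ((⁅a, b⁆ : ↥E) : G) = z := (S.comm a a.2 b b.2).resolve_left fun h' => hne (Subtype.ext h')
      have heq : (⟨_, hm⟩ : ↥(Cz z)) * ⟨_, hm⟩ = ⁅(⟨f a, ha⟩ : ↥(Cz z)), ⟨f b, hb⟩⁆ := by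
        apply Subtype.ext
        show r⁻¹ * d * r * (r⁻¹ * d * r) = ⁅f a, f b⁆
        rw [← map_commutatorElement]
        show _ = r⁻¹ * ((⁅a, b⁆ : ↥E) : G) * r
        rw [hz, ← h]; simp [mul_assoc]
      rw [heq, commutator_def]
      exact Subgroup.commutator_mem_commutator (Subgroup.mem_top _) (Subgroup.mem_top _)
  let Cb : Subgroup (Abelianization ↥E) := C.map Abelianization.of
  have hback : ∀ d : ↥E, Abelianization.of d ∈ Cb → d ∈ C := by
    rintro d ⟨c, hc, hcd⟩
    have h1 : Abelianization.of (c⁻¹ * d) = 1 := by rw [map_mul, map_inv, hcd, inv_mul_cancel]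
    have : c⁻¹ * d ∈ C := by
      rcases (S.ab_eq_one _).mp h1 with h | h
      · rw [show c⁻¹ * d = 1 from Subtype.ext h]; exact one_mem _
      · rw [show c⁻¹ * d = ⟨z, S.z_mem⟩ from Subtype.ext h]; exact hzC
    simpa using C.mul_mem hc this
  have hsame : ∀ a b : ↥E, (((a : G) * r : G) : G ⧸ (Cz z)) = (((b : G) * r : G) : G ⧸ (Cz z)) ↔ a⁻¹ * b ∈ C := by
    intro a b
    rw [QuotientGroup.eq, hC]
    simp [mul_assoc]
  haveI := Fintype.ofFinite (Abelianization ↥E ⧸ Cb)
  let β : {p // p ∈ P} → Abelianization ↥E ⧸ Cb := fun p => (Abelianization.of (e p.1) : Abelianization ↥E)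
  have hβ : Function.Bijective β := by
    constructor
    · intro p q h
      have h1 := hback ((e p.1)⁻¹ * e q.1) (by rw [map_mul, map_inv]; exact QuotientGroup.eq.mp h)
      have := (hsame _ _).mpr h1
      rw [hcos _ p.2, hcos _ q.2] at this
      exact Subtype.ext this
    · intro w
      obtain ⟨u, rfl⟩ := QuotientGroup.mk_surjective w
      obtain ⟨d, rfl⟩ := QuotientGroup.mk_surjective u
      have hp : (((d : G) * r : G) : G ⧸ (Cz z)) ∈ P :=
        mem_orbit_toFinset.mpr ⟨d, by rw [← smul_eq_mul, ← MulAction.Quotient.smul_coe, hr]⟩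
      refine ⟨⟨_, hp⟩, QuotientGroup.eq.mpr ?_⟩
      have h1 := (hsame (e (((d : G) * r : G) : G ⧸ (Cz z))) d).mp (hcos _ hp)
      have := Subgroup.mem_map_of_mem Abelianization.of h1
      rw [map_mul, map_inv] at this
      exact this
  have hcardW : Fintype.card (Abelianization ↥E ⧸ Cb) = P.card := by
    rw [← Fintype.card_of_bijective hβ, Fintype.card_coe]
  have hk2 : 2 ≤ k := by
    by_contra hlt
    obtain rfl : k = 1 := by omega
    -- the subgroup of index two is abelian, so E is small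
    have hidx : C.index = 2 := by
      have hst : stabilizer ↥E p0 = C := by
        ext d
        rw [mem_stabilizer_iff, hC, show d • p0 = (d : G) • p0 from rfl, ← hr, MulAction.Quotient.smul_coe,
          QuotientGroup.eq, smul_eq_mul]
        constructor <;> intro h <;> simpa [mul_assoc] using inv_mem h
      rw [← hst, MulAction.index_stabilizer, ← Nat.card_coe_set_eq, hk]
      rfl
    obtain ⟨y, hy⟩ : ∃ y : ↥E, y ∉ C := by
      by_contra hcon
      push Not at hcon
      rw [show C = ⊤ from eq_top_iff.mpr fun x _ => hcon x, Subgroup.index_top] at hidx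
      omega
    have hcl : C.index = 2 := hidx
    -- kernel of bracketing with y inside C is central
    have hker : ∀ c ∈ C, ⁅c, y⁆ = 1 → (c : G) = 1 ∨ (c : G) = z := by
      intro c hc h1
      refine S.cen _ fun x hx => ?_
      have hcC : ∀ w ∈ C, c * w = w * c := fun w hw => commutatorElement_eq_one_iff_mul_comm.mp (hab c hc w hw)
      have hcy : c * y = y * c := commutatorElement_eq_one_iff_mul_comm.mp h1
      by_cases hxC : (⟨x, hx⟩ : ↥E) ∈ C
      · exact congrArg Subtype.val (hcC _ hxC)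
      · have h2 : y⁻¹ * ⟨x, hx⟩ ∈ C := by
          rw [Subgroup.mul_mem_iff_of_index_two hidx]
          simp [hy, hxC]
        have h3 : Commute c (y * (y⁻¹ * ⟨x, hx⟩)) := Commute.mul_right hcy (hcC _ h2)
        rw [mul_inv_cancel_left] at h3
        exact congrArg Subtype.val h3
    let Ψ : ↥C → Prop := fun c => ⁅(c : ↥E), y⁆ = 1
    have hle : Nat.card ↥C ≤ 4 := by
      have h2 : ∀ c : ↥C, ¬ Ψ c → ∀ d : ↥C, ¬ Ψ d → Ψ (c⁻¹ * d) := by
        intro c hc d hd
        have hz1 : ∀ w : ↥C, ¬ Ψ w → ((⁅(w : ↥E), y⁆ : ↥E) : G) = z := fun w hw =>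
          (S.comm _ (w : ↥E).2 y y.2).resolve_left fun h' => hw (Subtype.ext h')
        have e1 : (c : ↥E) * y * (c : ↥E)⁻¹ = (d : ↥E) * y * (d : ↥E)⁻¹ := by
          have := (hz1 c hc).trans (hz1 d hd).symm
          have := Subtype.ext_iff.mpr this
          simp only [commutatorElement_def] at this
          exact mul_right_cancel this
        show ⁅((c⁻¹ * d : ↥C) : ↥E), y⁆ = 1
        rw [commutatorElement_eq_one_iff_mul_comm]
        calc ((c⁻¹ * d : ↥C) : ↥E) * y = (c : ↥E)⁻¹ * ((d : ↥E) * y * (d : ↥E)⁻¹) * (d : ↥E) := by simp [mul_assoc]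
          _ = y * ((c⁻¹ * d : ↥C) : ↥E) := by rw [← e1]; simp [mul_assoc]
      obtain ⟨c0, hc0⟩ : ∃ c0 : ↥C, ∀ c : ↥C, Ψ c ∨ Ψ (c0⁻¹ * c) := by
        by_cases h : ∃ c : ↥C, ¬ Ψ c
        · obtain ⟨c0, h0⟩ := h
          exact ⟨c0, fun c => (em (Ψ c)).imp_right fun hc => h2 c0 h0 c hc⟩
        · exact ⟨1, fun c => Or.inl (not_not.mp fun hc => h ⟨c, hc⟩)⟩
      let cands : Finset G := {1, z, ((c0 : ↥E) : G), ((c0 : ↥E) : G) * z}
      have hin : ∀ c : ↥C, ((c : ↥E) : G) ∈ cands := fun c => by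
        rcases hc0 c with h | h
        · rcases hker _ c.2 h with h' | h' <;> simp [cands, h']
        · have h' := hker _ (c0⁻¹ * c).2 h
          simp only [Subgroup.coe_mul, Subgroup.coe_inv, inv_mul_eq_one, inv_mul_eq_iff_eq_mul] at h'
          rcases h' with h' | h'
          · simp [cands, h']
          · simp [cands, h']
      calc Nat.card ↥C ≤ Nat.card cands := Nat.card_le_card_of_injective (fun c => ⟨_, hin c⟩)
            (fun a b h => Subtype.ext (Subtype.ext (congrArg Subtype.val h :)))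
        _ ≤ 4 := by rw [Nat.card_eq_finsetCard]; exact Finset.card_le_four
    have := C.card_mul_index
    rw [hidx] at this
    omega
  have hsq : ∀ w : Abelianization ↥E ⧸ Cb, w * w = 1 := fun w => by
    obtain ⟨u, rfl⟩ := QuotientGroup.mk_surjective w
    rw [← QuotientGroup.mk_mul, S.ab_sq, QuotientGroup.mk_one]
  have hprod : ((∏ p ∈ P, Abelianization.of (e p) : Abelianization ↥E) : Abelianization ↥E ⧸ Cb) = 1 := by
    rw [show ((∏ p ∈ P, Abelianization.of (e p) : Abelianization ↥E) : Abelianization ↥E ⧸ Cb) =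
      QuotientGroup.mk' Cb (∏ p ∈ P, Abelianization.of (e p)) from rfl, map_prod, ← Finset.prod_coe_sort]
    refine (Fintype.prod_bijective β hβ _ (fun w => w) fun p => rfl).trans (prod_univ_eq_one hsq ?_)
    rw [hcardW, hPc]
    have : 2 ^ 2 ≤ 2 ^ k := Nat.pow_le_pow_right (by norm_num) hk2
    omega
  obtain ⟨c, hc, hcp⟩ := (QuotientGroup.eq_one_iff _).mp hprod
  have hp0P : p0 ∈ P := mem_orbit_toFinset.mpr ⟨1, by simp⟩
  let e' : G ⧸ (Cz z) → ↥E := Function.update e p0 (e p0 * c⁻¹)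
  refine ⟨fun p => (e' p : G) * r, fun p hp => ?_, r, e', fun p _ => rfl, Or.inl ?_⟩
  · by_cases hpp : p = p0
    · subst hpp
      simp only [e', Function.update_self]
      refine ((hsame _ _).mpr ?_).trans (hcos _ hp)
      simpa [mul_assoc] using hc
    · simp only [e', Function.update_of_ne hpp]
      exact hcos _ hp
  · simp only [e']
    rw [show (fun p => Abelianization.of (Function.update e p0 (e p0 * c⁻¹) p)) =
      Function.update (fun p => Abelianization.of (e p)) p0 (Abelianization.of (e p0 * c⁻¹)) from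
      Function.comp_update (f := Abelianization.of) (g := e) .., Finset.prod_update_of_mem hp0P, map_mul, map_inv,
      hcp, Finset.sdiff_singleton_eq_erase, mul_right_comm,
      Finset.mul_prod_erase P (fun p => Abelianization.of (e p)) hp0P, mul_inv_cancel]

/-- The transfer of the sign restricts to the sign on the centralizer. -/
theorem transfer_eq [Finite G] (S : Setup z E) (hP : IsPGroup 2 ↥E) (hbig : 8 < Nat.card ↥E) (s : Sign z)
    (x : ↥(Subgroup.centralizer ({z} : Set G))) : MonoidHom.transfer s.ψ (x : G) = s.ψ x := by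
  letI : Fintype (G ⧸ Cz z) := Subgroup.fintypeQuotientOfFiniteIndex
  let orb : G ⧸ (Cz z) → Finset (G ⧸ (Cz z)) := fun p => (orbit ↥E p).toFinset
  let base : G ⧸ (Cz z) := ((1 : G) : G ⧸ (Cz z))
  have hfix : ∀ h ∈ (Cz z), h • base = base := fun h hh => by
    show h • ((1 : G) : G ⧸ (Cz z)) = _
    rw [MulAction.Quotient.smul_coe, smul_eq_mul, mul_one, QuotientGroup.eq]
    simpa using inv_mem hh
  have horb : ∀ p q : G ⧸ (Cz z), q ∈ orb p → orb q = orb p := fun p q h => by
    simp only [orb, Set.toFinset_inj]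
    exact orbit_eq_iff.mpr (Set.mem_toFinset.mp h)
  have hne : ∀ p, p ≠ base → ∀ q ∈ orb p, q ≠ base := by
    intro p hp q hq hqb
    obtain ⟨e, he⟩ := mem_orbit_toFinset.mp hq
    exact hp (by rw [← inv_smul_smul (e : G) p, he, hqb, hfix _ (inv_mem (S.le e.2))])
  have hch : ∀ P : Finset (G ⧸ (Cz z)), ∃ t : G ⧸ (Cz z) → G, ∀ p, p ≠ base → P = orb p → Good E s P t := by
    intro P
    by_cases h : ∃ p, p ≠ base ∧ P = orb p
    · obtain ⟨p, hp, rfl⟩ := h
      obtain ⟨_, t, ht⟩ := exists_good S hP hbig s hp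
      exact ⟨t, fun _ _ _ => ht⟩
    · exact ⟨fun _ => 1, fun p hp hpe => absurd ⟨p, hp, hpe⟩ h⟩
  choose tt htt using hch
  let t : G ⧸ (Cz z) → G := fun p => if p = base then 1 else tt (orb p) p
  have htgood : ∀ p, p ≠ base → Good E s (orb p) t := fun p hp => by
    obtain ⟨h1, r, e, h2, h3⟩ := htt (orb p) p hp rfl
    have heq : ∀ q ∈ orb p, t q = tt (orb p) q := fun q hq => by
      simp only [t, if_neg (hne p hp q hq), horb p q hq]
    exact ⟨fun q hq => by rw [heq q hq]; exact h1 q hq, r, e, fun q hq => by rw [heq q hq]; exact h2 q hq, h3⟩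
  have hsec : ∀ p, ((t p : G) : G ⧸ (Cz z)) = p := fun p => by
    by_cases hp : p = base
    · simp [t, hp, base]
    · exact (htgood p hp).1 p (Set.mem_toFinset.mpr (mem_orbit_self p))
  let T : (Cz z).LeftTransversal := ⟨Set.range t, Subgroup.isComplement_range_left hsec⟩
  have hT : ∀ q, ((T.2.leftQuotientEquiv q : T.1) : G) = t q := fun q =>
    Subgroup.IsComplement.leftQuotientEquiv_apply hsec q
  let φ : G ⧸ (Cz z) → ℂˣ := fun q => s.ext ((t q)⁻¹ * ((x : G) * t ((x : G)⁻¹ • q)))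
  have htr : MonoidHom.transfer s.ψ (x : G) = ∏ q, φ q := by
    rw [MonoidHom.transfer_def s.ψ T]
    unfold Subgroup.leftTransversals.diff
    dsimp only
    refine Fintype.prod_congr _ _ fun q => ?_
    simp only [φ, Sign.ext]
    rw [dif_pos]
    swap
    · refine QuotientGroup.eq.mp ((hsec q).trans ?_)
      rw [← smul_eq_mul, ← MulAction.Quotient.smul_coe, hsec, smul_inv_smul]
    congr 1
    apply Subtype.ext
    simp only [Subgroup.smul_apply_eq_smul_apply_inv_smul, hT, smul_eq_mul]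
  rw [htr, ← Finset.mul_prod_erase Finset.univ φ (Finset.mem_univ base)]
  have hb : φ base = s.ψ x := by
    simp only [φ, hfix _ (inv_mem x.2), t, if_true, inv_one, one_mul, mul_one, Sign.ext, dif_pos x.2]
  rw [hb, mul_eq_left, ← Finset.prod_fiberwise_of_maps_to (g := orb) (t := (Finset.univ.erase base).image orb)
    (fun q hq => Finset.mem_image_of_mem orb hq)]
  refine Finset.prod_eq_one fun P hPm => ?_
  obtain ⟨p, hp, rfl⟩ := Finset.mem_image.mp hPm
  have hp' : p ≠ base := (Finset.mem_erase.mp hp).1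
  have hfib : (Finset.univ.erase base).filter (fun q => orb q = orb p) = orb p := by
    ext q
    simp only [Finset.mem_filter, Finset.mem_erase, Finset.mem_univ, and_true]
    refine ⟨fun h => h.2 ▸ Set.mem_toFinset.mpr (mem_orbit_self q), fun h => ⟨hne p hp' q h, horb p q h⟩⟩
  rw [hfib]
  obtain ⟨hev, -⟩ := exists_good S hP hbig s hp'
  refine good_diff S s ⟨p, Set.mem_toFinset.mpr (mem_orbit_self p)⟩ hev (htgood p hp') ?_
  -- the translated system
  let p' : G ⧸ (Cz z) := (x : G)⁻¹ • p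
  have hp'' : p' ≠ base := fun h => hp' (by rw [← smul_inv_smul (x : G) p, show (x : G)⁻¹ • p = base from h, hfix _ x.2])
  have himg : (orb p').image ((x : G) • ·) = orb p := by
    ext q
    simp only [Finset.mem_image, orb, mem_orbit_toFinset]
    constructor
    · rintro ⟨w, ⟨e, rfl⟩, rfl⟩
      refine ⟨⟨(x : G) * e * (x : G)⁻¹, S.norm _ x.2 _ e.2⟩, ?_⟩
      simp [p', smul_smul, mul_assoc]
    · rintro ⟨e, rfl⟩
      refine ⟨_, ⟨⟨(x : G)⁻¹ * e * (x : G), by simpa using S.norm _ (inv_mem x.2) _ e.2⟩, rfl⟩, ?_⟩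
      simp [p', smul_smul, mul_assoc]
  show Good E s (orb p) _
  rw [← himg]
  exact good_smul S s x.2 (htgood p' hp'')

end Cfsg.Agent.Lib.ExtraTransfer
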