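import Cfsg.Agent.Lib.ExtraTransfer.Quad

/-! Transfer of an index-two character when the central involution is weakly closed in the extraspecial group. -/
set_option autoImplicit false
set_option linter.unusedSectionVars false

open scoped Classical commutatorElement
open MulAction Subgroup

namespace Cfsg.Agent.Lib.ExtraTransfer

open Cfsg.Agent.Lib.Thompson.Extra

universe u

variable {G : Type u} [Group G] [Finite G] {z : G} {E : Subgroup G} {zE : ↥E}

/-- the sign of a central value. -/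
noncomputable def kap (w : ↥E) : ℂˣ := if w = 1 then 1 else -1

theorem kap_mul (d : Data 2 zE) {a b : ↥E} (ha : a ∈ zpowers zE) (hb : b ∈ zpowers zE) :
    kap (a * b) = kap a * kap b := by
  rcases zcases d ha with rfl | rfl <;> rcases zcases d hb with rfl | rfl <;>
    simp [kap, zne d, zmul_self d ha]

theorem kap_inj (d : Data 2 zE) {a b : ↥E} (ha : a ∈ zpowers zE) (hb : b ∈ zpowers zE) (h : kap a = kap b) :
    a = b := by
  rcases zcases d ha with rfl | rfl <;> rcases zcases d hb with rfl | rfl <;>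
    simp [kap, zne d, neg_one_ne, Ne.symm neg_one_ne] at h ⊢

/-- bracketing with a fixed element, as a character. -/
noncomputable def brk (d : Data 2 zE) (a : ↥E) : Abelianization ↥E →* ℂˣ :=
  Abelianization.lift (MonoidHom.mk' (fun e => kap ⁅e, a⁆) fun x y => by
    show kap ⁅x * y, a⁆ = _
    rw [d.mul_left, kap_mul d (d.comm _ _) (d.comm _ _)])

theorem brk_of (d : Data 2 zE) (a e : ↥E) : brk d a (Abelianization.of e) = kap ⁅e, a⁆ := rfl

theorem brk_inj (d : Data 2 zE) (hz : zE ∈ commutator ↥E) {a a' : ↥E} (h : brk d a = brk d a') :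
    Abelianization.of a = Abelianization.of a' := by
  rw [of_eq_iff d hz, ← d.cen, mem_center_iff]
  intro e
  have h1 : ⁅e, a⁆ = ⁅e, a'⁆ := by
    refine kap_inj d (d.comm _ _) (d.comm _ _) ?_
    rw [← brk_of d, ← brk_of d, h]
  have h2 : a * e⁻¹ * a⁻¹ = a' * e⁻¹ * a'⁻¹ := by
    simp only [commutatorElement_def, mul_assoc, mul_left_cancel_iff] at h1
    simpa [mul_assoc] using h1
  have h3 : e⁻¹ * (a⁻¹ * a') = a⁻¹ * a' * e⁻¹ := by
    calc e⁻¹ * (a⁻¹ * a') = a⁻¹ * (a * e⁻¹ * a⁻¹) * a' := by simp [mul_assoc]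
      _ = a⁻¹ * a' * e⁻¹ := by rw [h2]; simp [mul_assoc]
  exact (Commute.inv_left_iff.mp h3).eq

theorem brk_surj (d : Data 2 zE) (hz : zE ∈ commutator ↥E) (χ : Abelianization ↥E →* ℂˣ) :
    ∃ a : ↥E, brk d a = χ := by
  let Φ : Abelianization ↥E → (Abelianization ↥E →* ℂˣ) := fun w => brk d (Quotient.out w)
  have hinj : Function.Injective Φ := fun u v h => by
    have := brk_inj d hz h
    exact (QuotientGroup.out_eq' u).symm.trans (this.trans (QuotientGroup.out_eq' v))
  obtain ⟨eqv⟩ := CommGroup.monoidHom_mulEquiv_of_hasEnoughRootsOfUnity (Abelianization ↥E) ℂ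
  obtain ⟨w, hw⟩ := (hinj.bijective_of_nat_card_le (Nat.card_congr eqv.toEquiv).le).2 χ
  exact ⟨_, hw⟩

theorem mem_of_trivial_mod (S : Setup z E) (d : Data 2 zE) (hz : zE ∈ commutator ↥E) {x : G}
    (k : ↥E → ↥E) (hk : ∀ e, k e ∈ zpowers zE) (hx : ∀ e : ↥E, x * (e : G) * x⁻¹ = ((k e * e : ↥E) : G)) :
    x ∈ E := by
  have hkm : ∀ a b, k (a * b) = k a * k b := by
    intro a b
    have h1 : ((k (a * b) * (a * b) : ↥E) : G) = ((k a * k b * (a * b) : ↥E) : G) := by
      rw [← hx]
      calc x * ((a * b : ↥E) : G) * x⁻¹ = x * (a : G) * x⁻¹ * (x * (b : G) * x⁻¹) := by simp [mul_assoc]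
        _ = ((k a * a * (k b * b) : ↥E) : G) := by rw [hx, hx]; rfl
        _ = _ := by
            congr 1
            rw [mul_assoc (k a) a, ← mul_assoc a (k b) b, ← zcomm d (hk b) a]
            simp [mul_assoc]
    exact mul_right_cancel (Subtype.ext h1)
  let χ0 : ↥E →* ℂˣ := MonoidHom.mk' (fun e => kap (k e)) fun a b => by
    show kap (k (a * b)) = _
    rw [hkm, kap_mul d (hk a) (hk b)]
  obtain ⟨a, ha⟩ := brk_surj d hz (Abelianization.lift χ0)
  have hke : ∀ e, k e = ⁅e, a⁆ := fun e => by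
    refine kap_inj d (hk e) (d.comm _ _) ?_
    rw [← brk_of d a e, ha, Abelianization.lift_apply_of]
    rfl
  have hcomm : ∀ e ∈ E, ((a : G) * x) * e = e * ((a : G) * x) := by
    intro e he
    have h1 : (a : G) * x * e * ((a : G) * x)⁻¹ = e := by
      calc (a : G) * x * e * ((a : G) * x)⁻¹ = (a : G) * (x * ((⟨e, he⟩ : ↥E) : G) * x⁻¹) * (a : G)⁻¹ := by
            simp [mul_assoc]
        _ = ((a * (k ⟨e, he⟩ * ⟨e, he⟩) * a⁻¹ : ↥E) : G) := by rw [hx]; rfl
        _ = ((k ⟨e, he⟩ * (a * ⟨e, he⟩ * a⁻¹) : ↥E) : G) := by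
            congr 1
            rw [← mul_assoc a (k ⟨e, he⟩), ← zcomm d (hk _) a]
            simp [mul_assoc]
        _ = e := by rw [hke, commutatorElement_def]; simp [mul_assoc]
    exact mul_inv_eq_iff_eq_mul.mp h1
  have h2 : (a : G) * x ∈ E := by
    rcases S.cen _ hcomm with h | h <;> rw [h]
    exacts [E.one_mem, S.z_mem]
  simpa using E.mul_mem (E.inv_mem a.2) h2

/-- The part of `E` fixing a coset. -/
def CS (z : G) (E : Subgroup G) (r : G) : Subgroup ↥E where
  carrier := {e | r⁻¹ * (e : G) * r ∈ Cz z}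
  one_mem' := by show r⁻¹ * ((1 : ↥E) : G) * r ∈ Cz z; simp [one_mem]
  mul_mem' := fun {a b} ha hb => by
    show r⁻¹ * ((a * b : ↥E) : G) * r ∈ Cz z
    rw [show r⁻¹ * ((a * b : ↥E) : G) * r = r⁻¹ * (a : G) * r * (r⁻¹ * (b : G) * r) from by simp [mul_assoc]]
    exact mul_mem ha hb
  inv_mem' := fun {a} ha => by
    show r⁻¹ * ((a⁻¹ : ↥E) : G) * r ∈ Cz z
    rw [show r⁻¹ * ((a⁻¹ : ↥E) : G) * r = (r⁻¹ * (a : G) * r)⁻¹ from by simp [mul_assoc]]
    exact inv_mem ha

theorem mem_CS {r : G} {e : ↥E} : e ∈ CS z E r ↔ r⁻¹ * (e : G) * r ∈ Cz z := Iff.rfl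

theorem mk_eq_iff {r : G} (a b : ↥E) :
    (((a : G) * r : G) : G ⧸ Cz z) = (((b : G) * r : G) : G ⧸ Cz z) ↔ a⁻¹ * b ∈ CS z E r := by
  rw [QuotientGroup.eq, mem_CS]
  simp [mul_assoc]

/-- The image of `CS` in the abelianization. -/
abbrev CB (z : G) (E : Subgroup G) (r : G) : Subgroup (Abelianization ↥E) := (CS z E r).map Abelianization.of

/-- The affine space of an orbit. -/
abbrev WS (z : G) (E : Subgroup G) (r : G) : Type u := Abelianization ↥E ⧸ CB z E r

/-- the class map. -/
def cls (z : G) (E : Subgroup G) (r : G) : ↥E →* WS z E r := (QuotientGroup.mk' (CB z E r)).comp Abelianization.of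

theorem cls_surj (r : G) : Function.Surjective (cls z E r) :=
  (QuotientGroup.mk'_surjective _).comp QuotientGroup.mk_surjective

theorem cls_eq_one (d : Data 2 zE) {r : G} (hzC : zE ∈ CS z E r) {e : ↥E} :
    cls z E r e = 1 ↔ e ∈ CS z E r := by
  refine (QuotientGroup.eq_one_iff _).trans ⟨fun h => ?_, fun h => mem_map_of_mem _ h⟩
  obtain ⟨c, hc, hce⟩ := h
  have h1 : Abelianization.of (c⁻¹ * e) = 1 := by rw [map_mul, map_inv, hce, inv_mul_cancel]
  have h2 : c⁻¹ * e ∈ CS z E r := zpowers_le.mpr hzC (comm_le d ((QuotientGroup.eq_one_iff _).mp h1))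
  simpa using mul_mem hc h2

theorem WS_sq (d : Data 2 zE) (hz : zE ∈ commutator ↥E) (r : G) (w : WS z E r) : w * w = 1 := by
  obtain ⟨u, rfl⟩ := QuotientGroup.mk_surjective w
  rw [← QuotientGroup.mk_mul, ab_sq' d hz, QuotientGroup.mk_one]

/-- Data of the extraspecial subgroup with the weak closure hypothesis. -/
structure Hyp (z : G) (E : Subgroup G) (zE : ↥E) : Prop where
  S : Setup z E
  d : Data 2 zE
  hz : zE ∈ commutator ↥E
  hzz : (zE : G) = z
  fus : ∀ r : G, r * z * r⁻¹ ∈ E → r * z * r⁻¹ = z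
  big : 128 ≤ Nat.card ↥E

/-- A sign character. -/
structure Char2 (z : G) where
  ψ : ↥(Subgroup.centralizer ({z} : Set G)) →* ℂˣ
  sq : ∀ h, ψ h * ψ h = 1

/-- extension by one. -/
noncomputable def Char2.ext (s : Char2 z) (x : G) : ℂˣ := if h : x ∈ Cz z then s.ψ ⟨x, h⟩ else 1

theorem Char2.ext_mul (s : Char2 z) {x y : G} (hx : x ∈ Cz z) (hy : y ∈ Cz z) :
    s.ext (x * y) = s.ext x * s.ext y := by
  simp only [Char2.ext, dif_pos hx, dif_pos hy, dif_pos (mul_mem hx hy)]
  rw [← map_mul]; rfl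

theorem Char2.ext_sq (s : Char2 z) (x : G) : s.ext x * s.ext x = 1 := by
  unfold Char2.ext; split
  · exact s.sq _
  · simp

/-- the twisted restriction. -/
noncomputable def Char2.th (s : Char2 z) (E : Subgroup G) (r : G) : ↥(CS z E r) →* ℂˣ :=
  MonoidHom.mk' (fun c => s.ext (r⁻¹ * ((c : ↥E) : G) * r)) fun a b => by
    show s.ext (r⁻¹ * (((a * b : ↥(CS z E r)) : ↥E) : G) * r) = _
    rw [show r⁻¹ * (((a * b : ↥(CS z E r)) : ↥E) : G) * r =
      r⁻¹ * ((a : ↥E) : G) * r * (r⁻¹ * ((b : ↥E) : G) * r) from by simp [mul_assoc], s.ext_mul a.2 b.2]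

theorem moved_iff (H : Hyp z E zE) (r : G) :
    z • ((r : G) : G ⧸ Cz z) = ((r : G) : G ⧸ Cz z) ↔ zE ∈ CS z E r := by
  have h := mk_eq_iff (z := z) (r := r) (1 : ↥E) zE
  simp only [OneMemClass.coe_one, one_mul, inv_one, H.hzz] at h
  rw [← h, MulAction.Quotient.smul_coe, smul_eq_mul]
  exact eq_comm

/-- good systems of representatives. -/
def Good2 [Fintype (G ⧸ Cz z)] (zE : ↥E) (d : Data 2 zE) (P : Finset (G ⧸ Cz z)) (t : G ⧸ Cz z → G) : Prop :=
  (∀ p ∈ P, (t p : G ⧸ Cz z) = p) ∧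
  ((∀ p ∈ P, z • p ∈ P ∧ z • p ≠ p ∧ t (z • p) = z * t p) ∨
   ∃ r : G, r ∉ Cz z ∧ zE ∈ CS z E r ∧ ∃ F : WS z E r → ↥E, Quad d F ∧ (∀ w, cls z E r (F w) = w) ∧
     P = Finset.univ.filter (fun p => ∃ w, (((F w : G) * r : G) : G ⧸ Cz z) = p) ∧
     ∀ w, t (((F w : G) * r : G) : G ⧸ Cz z) = (F w : G) * r)

variable [Fintype (G ⧸ Cz z)]

/-- size bounds for the affine space. -/
theorem card_WS (H : Hyp z E zE) {r : G} (hr : r ∉ Cz z) (hzC : zE ∈ CS z E r) (s : Char2 z) :
    8 ≤ Nat.card (WS z E r) ∨ (4 ≤ Nat.card (WS z E r) ∧ s.th E r ⟨zE, hzC⟩ = 1) := by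
  have d := H.d
  have hpg : IsPGroup 2 (WS z E r) := fun w => ⟨1, by rw [pow_one, pow_two]; exact WS_sq d H.hz r w⟩
  obtain ⟨k, hk⟩ := IsPGroup.iff_card.mp hpg
  set x := r * z * r⁻¹ with hxdef
  have hxx : x * x = 1 := by
    rw [hxdef, show r * z * r⁻¹ * (r * z * r⁻¹) = r * (z * z) * r⁻¹ from by simp [mul_assoc], H.S.zsq]; simp
  have hxi : x⁻¹ = x := inv_eq_of_mul_eq_one_right hxx
  have hC : ∀ e : ↥E, e ∈ CS z E r ↔ x * (e : G) = (e : G) * x := by
    intro e
    rw [mem_CS, Setup.mem, hxdef]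
    constructor
    · intro h
      calc r * z * r⁻¹ * (e : G) = r * (z * (r⁻¹ * e * r)) * r⁻¹ := by simp [mul_assoc]
        _ = _ := by rw [← h]; simp [mul_assoc]
    · intro h
      calc r⁻¹ * (e : G) * r * z = r⁻¹ * ((e : G) * (r * z * r⁻¹)) * r := by simp [mul_assoc]
        _ = _ := by rw [← h]; simp [mul_assoc]
  have hxH : x ∈ Cz z := Setup.mem.mpr (by
    have := (hC zE).mp hzC; rwa [H.hzz] at this)
  have hk2 : 2 ≤ k := by
    by_contra hlt
    -- `x` would act on `E` trivially modulo the centre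
    have key : ∀ e : ↥E, ∃ c : ↥E, c ∈ zpowers zE ∧ x * (e : G) * x⁻¹ = ((c * e : ↥E) : G) := by
      intro e
      by_cases he : e ∈ CS z E r
      · exact ⟨1, one_mem _, by rw [(hC e).mp he]; simp⟩
      -- `e` lies outside the subgroup of index two
      let f : ↥E := ⟨x * (e : G) * x⁻¹, H.S.norm x hxH e e.2⟩
      have hout : f ∉ CS z E r := by
        intro hf
        refine he ((hC e).mpr ?_)
        have := (hC f).mp hf
        show x * (e : G) = e * x
        have h2 : x * (x * (e : G) * x⁻¹) = x * (e : G) * x⁻¹ * x := this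
        calc x * (e : G) = x * (e : G) * x⁻¹ * x := by simp
          _ = x * (x * (e : G) * x⁻¹) := h2.symm
          _ = x * x * ((e : G) * x⁻¹) := by simp [mul_assoc]
          _ = (e : G) * x := by rw [hxx, one_mul, hxi]
      have hcl : ∀ a : ↥E, a ∉ CS z E r → ∀ b : ↥E, b ∉ CS z E r → cls z E r a = cls z E r b := by
        intro a ha b hb
        by_contra hne
        have h2 : Nat.card (WS z E r) ≤ 2 := by
          rw [hk]; calc 2 ^ k ≤ 2 ^ 1 := Nat.pow_le_pow_right (by norm_num) (by omega)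
            _ = 2 := pow_one 2
        have h3 : ({1, cls z E r a, cls z E r b} : Finset (WS z E r)).card = 3 := by
          rw [Finset.card_eq_three]
          exact ⟨_, _, _, fun h => ha ((cls_eq_one d hzC).mp h.symm), fun h => hb ((cls_eq_one d hzC).mp h.symm),
            hne, rfl⟩
        haveI := Fintype.ofFinite (WS z E r)
        have := Finset.card_le_univ ({1, cls z E r a, cls z E r b} : Finset (WS z E r))
        rw [h3, ← Nat.card_eq_fintype_card] at this
        omega
      set u : ↥E := e⁻¹ * f with hu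
      have huC : u ∈ CS z E r := by
        rw [← cls_eq_one d hzC, hu, map_mul, map_inv, hcl e he f hout, inv_mul_cancel]
      refine ⟨e * u * e⁻¹, ?_, by simp [hu, f, mul_assoc]⟩
      have hfe : f = e * u := by simp [hu]
      have hxu : x * (u : G) = (u : G) * x := (hC u).mp huC
      -- u is an involution
      have he2 : x * ((e : G) * u) * x⁻¹ = e := by
        rw [show (e : G) * u = (f : G) from congrArg Subtype.val hfe.symm]
        show x * (x * (e : G) * x⁻¹) * x⁻¹ = e
        rw [hxi, show x * (x * (e : G) * x) * x = x * x * e * (x * x) from by simp [mul_assoc], hxx]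
        simp
      have hu2 : u * u = 1 := by
        apply Subtype.ext
        have h1 : (e : G) * u * u = e := by
          calc (e : G) * u * u = x * (e : G) * x⁻¹ * u := by
                rw [show (e : G) * u = (f : G) from congrArg Subtype.val hfe.symm]
            _ = x * ((e : G) * u) * x⁻¹ := by rw [hxi]; simp only [mul_assoc]; rw [hxu]
            _ = e := he2
        show (u : G) * u = 1
        calc (u : G) * u = (e : G)⁻¹ * ((e : G) * u * u) := by simp [mul_assoc]
          _ = 1 := by rw [h1]; simp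
      -- squares are fixed, so u commutes with e
      have hee : e * u * (e * u) = e * e := by
        rw [← hfe]; apply Subtype.ext
        show x * (e : G) * x⁻¹ * (x * (e : G) * x⁻¹) = (e : G) * e
        have hsq : (e : G) * e = 1 ∨ (e : G) * e = z := H.S.sq e e.2
        rw [show x * (e : G) * x⁻¹ * (x * (e : G) * x⁻¹) = x * ((e : G) * e) * x⁻¹ from by simp [mul_assoc]]
        rcases hsq with h | h
        · rw [h]; simp
        · rw [h, Setup.mem.mp hxH]; simp
      have hue : u * e = e * u := by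
        have h1 : u * e * u = e := by
          have := congrArg (fun t => e⁻¹ * t) hee
          simpa [mul_assoc] using this
        calc u * e = u * e * (u * u) := by rw [hu2, mul_one]
          _ = e * u := by rw [← mul_assoc, h1]
      rw [show e * u * e⁻¹ = u from by rw [← hue]; simp [mul_assoc], ← d.cen, mem_center_iff]
      intro g
      -- u commutes with the subgroup of index two
      have hcC : ∀ c ∈ CS z E r, c * u = u * c := by
        intro c hc
        have hc' : e * c * e⁻¹ ∈ CS z E r := by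
          rw [← cls_eq_one d hzC, map_mul, map_mul, map_inv, (cls_eq_one d hzC).mpr hc, mul_one, mul_inv_cancel]
        apply Subtype.ext
        have h1 := (hC _).mp hc'
        have h2 := (hC c).mp hc
        have h3 : (e : G) * u * c * ((e : G) * u)⁻¹ = (e : G) * c * (e : G)⁻¹ := by
          rw [show (e : G) * u = (f : G) from congrArg Subtype.val hfe.symm]
          show x * (e : G) * x⁻¹ * c * (x * (e : G) * x⁻¹)⁻¹ = _
          calc x * (e : G) * x⁻¹ * c * (x * (e : G) * x⁻¹)⁻¹ = x * (e : G) * (x⁻¹ * ((c : G) * x)) * (e : G)⁻¹ * x⁻¹ := by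
                simp [mul_assoc]
            _ = x * ((e * c * e⁻¹ : ↥E) : G) * x⁻¹ := by rw [← h2]; simp [mul_assoc]
            _ = _ := by rw [h1]; simp
        have h4 : (u : G) * c * (u : G)⁻¹ = c := by
          have := congrArg (fun t => (e : G)⁻¹ * t * (e : G)) h3
          simpa [mul_assoc] using this
        show (c : G) * u = u * c
        exact (mul_inv_eq_iff_eq_mul.mp h4).symm
      by_cases hg : g ∈ CS z E r
      · exact hcC g hg
      · have hg' : e⁻¹ * g ∈ CS z E r := by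
          rw [← cls_eq_one d hzC, map_mul, map_inv, hcl e he g hg, inv_mul_cancel]
        have := hcC _ hg'
        calc g * u = e * (e⁻¹ * g * u) := by simp [mul_assoc]
          _ = e * u * (e⁻¹ * g) := by rw [this]; simp [mul_assoc]
          _ = u * g := by rw [← hue]; simp [mul_assoc]
    choose kf hkf hxe using key
    have hxE : x ∈ E := mem_of_trivial_mod H.S d H.hz kf hkf hxe
    refine hr (Setup.mem.mpr ?_)
    have h1 := H.fus r hxE
    calc r * z = r * z * r⁻¹ * r := by simp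
      _ = z * r := by rw [h1]
  by_cases hth : s.th E r ⟨zE, hzC⟩ = 1
  · refine Or.inr ⟨?_, hth⟩
    rw [hk]; calc 4 = 2 ^ 2 := by norm_num
      _ ≤ 2 ^ k := Nat.pow_le_pow_right (by norm_num) hk2
  refine Or.inl ?_
  have hab : ∀ a ∈ CS z E r, ∀ b ∈ CS z E r, ⁅a, b⁆ = 1 := by
    intro a ha b hb
    rcases zcases d (d.comm a b) with h | h
    · exact h
    · refine absurd ?_ hth
      rw [show (⟨zE, hzC⟩ : ↥(CS z E r)) = ⁅(⟨a, ha⟩ : ↥(CS z E r)), ⟨b, hb⟩⁆ from Subtype.ext h.symm,
        map_commutatorElement, commutatorElement_eq_one_iff_mul_comm, mul_comm]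
  -- the bracket embeds the image of `CS` into the dual of the affine space
  have hkill : ∀ a ∈ CS z E r, CB z E r ≤ (brk d a).ker := by
    rintro a ha _ ⟨c, hc, rfl⟩
    rw [MonoidHom.mem_ker, brk_of, hab c hc a ha]
    simp [kap]
  let Ψ : ↥(CB z E r) → (WS z E r →* ℂˣ) := fun w =>
    QuotientGroup.lift (CB z E r) (brk d (Classical.choose w.2)) (hkill _ (Classical.choose_spec w.2).1)
  have hΨ : Function.Injective Ψ := by
    intro u v h
    have hb : brk d (Classical.choose u.2) = brk d (Classical.choose v.2) := by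
      refine MonoidHom.ext fun w => ?_
      exact congrArg (fun f : WS z E r →* ℂˣ => f (QuotientGroup.mk w)) h
    exact Subtype.ext ((Classical.choose_spec u.2).2.symm.trans ((brk_inj d H.hz hb).trans (Classical.choose_spec v.2).2))
  obtain ⟨eqv⟩ := CommGroup.monoidHom_mulEquiv_of_hasEnoughRootsOfUnity (WS z E r) ℂ
  haveI : Finite (WS z E r →* ℂˣ) := Finite.of_equiv _ eqv.symm.toEquiv
  have hle : Nat.card ↥(CB z E r) ≤ Nat.card (WS z E r) :=
    (Nat.card_le_card_of_injective Ψ hΨ).trans (Nat.card_congr eqv.toEquiv).le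
  have hsplit : Nat.card (Abelianization ↥E) = Nat.card (WS z E r) * Nat.card ↥(CB z E r) :=
    (CB z E r).card_eq_card_quotient_mul_card_subgroup
  have hAb : Nat.card ↥E = Nat.card (Abelianization ↥E) * Nat.card ↥(commutator ↥E) :=
    (commutator ↥E).card_eq_card_quotient_mul_card_subgroup
  have hcomm2 : Nat.card ↥(commutator ↥E) ≤ 2 := by
    calc Nat.card ↥(commutator ↥E) ≤ Nat.card ↥(zpowers zE) :=
          Nat.le_of_dvd Nat.card_pos (card_dvd_of_le (comm_le d))
      _ = 2 := by rw [Nat.card_zpowers, d.ord]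
  have := H.big
  by_contra hlt8
  have : Nat.card (Abelianization ↥E) ≤ 49 := by rw [hsplit]; exact Nat.mul_le_mul (by omega) (by omega) |>.trans (by norm_num : 7 * 7 ≤ 49)
  have : Nat.card ↥E ≤ 49 * 2 := hAb ▸ Nat.mul_le_mul this hcomm2
  omega

theorem good2_diff (H : Hyp z E zE) (s : Char2 z) {P : Finset (G ⧸ Cz z)} {t t' : G ⧸ Cz z → G}
    (h : Good2 zE H.d P t) (h' : Good2 zE H.d P t') : ∏ p ∈ P, s.ext ((t p)⁻¹ * t' p) = 1 := by
  have d := H.d
  obtain ⟨ht, h⟩ := h
  obtain ⟨ht', h'⟩ := h'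
  have notboth : ∀ {r : G} {F : WS z E r → ↥E}, zE ∈ CS z E r → (∀ w, cls z E r (F w) = w) →
      P = Finset.univ.filter (fun p => ∃ w, (((F w : G) * r : G) : G ⧸ Cz z) = p) →
      ¬ ∀ p ∈ P, z • p ≠ p := by
    intro r F hzC hF hP hall
    refine hall (((F 1 : G) * r : G) : G ⧸ Cz z) (by rw [hP]; exact Finset.mem_filter.mpr ⟨Finset.mem_univ _, 1, rfl⟩) ?_
    rw [MulAction.Quotient.smul_coe, smul_eq_mul]
    have h1 := (mk_eq_iff (z := z) (r := r) (zE * F 1) (F 1)).mpr (by
      rw [show (zE * F 1)⁻¹ * F 1 = zE⁻¹ from by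
        rw [zcomm d (mem_zpowers zE) (F 1)]; simp [mul_assoc]]
      exact inv_mem hzC)
    rw [show ((zE * F 1 : ↥E) : G) = z * (F 1 : G) from by rw [Subgroup.coe_mul, H.hzz]] at h1
    rw [← mul_assoc]; exact h1
  rcases h with h | ⟨r, hr, hzC, F, hF, hFs, hP, hFt⟩
  · rcases h' with h' | ⟨r', -, hzC', F', -, hFs', hP', -⟩
    · refine Finset.prod_involution (fun p _ => z • p) (fun p hp => ?_) (fun p hp _ => (h p hp).2.1)
        (fun p hp => (h p hp).1) (fun p _ => by rw [smul_smul, H.S.zsq, one_smul])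
      rw [(h p hp).2.2, (h' p hp).2.2, mul_inv_rev, mul_assoc, inv_mul_cancel_left, s.ext_sq]
    · exact absurd (fun p hp => (h p hp).2.1) (notboth hzC' hFs' hP')
  · rcases h' with h' | ⟨r', hr', hzC', F', hF', hFs', hP', hFt'⟩
    · exact absurd (fun p hp => (h' p hp).2.1) (notboth hzC hFs hP)
    -- both quadratic
    let pt : WS z E r → G ⧸ Cz z := fun w => (((F w : G) * r : G) : G ⧸ Cz z)
    have hpt : Function.Injective pt := fun a b hab => by
      have := (cls_eq_one d hzC).mpr ((mk_eq_iff (F a) (F b)).mp hab)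
      rw [map_mul, map_inv, hFs, hFs, inv_mul_eq_one] at this
      exact this
    obtain ⟨w0, hw0⟩ : ∃ w, pt w = ((r' : G) : G ⧸ Cz z) := by
      have hmem : ((r' : G) : G ⧸ Cz z) ∈ P := by
        rw [hP']
        refine Finset.mem_filter.mpr ⟨Finset.mem_univ _, 1, ?_⟩
        have h1 : F' 1 ∈ CS z E r' := (cls_eq_one d hzC').mp (hFs' 1)
        simpa using (mk_eq_iff (F' 1) (1 : ↥E)).mpr (by simpa using inv_mem h1)
      rw [hP] at hmem
      exact (Finset.mem_filter.mp hmem).2
    set e0 := F w0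
    set h0 := ((e0 : G) * r)⁻¹ * r' with hh0
    have hh0m : h0 ∈ Cz z := QuotientGroup.eq.mp hw0
    have hr'e : r' = (e0 : G) * r * h0 := by simp [hh0, mul_assoc]
    have hCeq : CS z E r' = CS z E r := by
      ext e
      rw [mem_CS, mem_CS]
      have h1 : r'⁻¹ * (e : G) * r' = h0⁻¹ * (r⁻¹ * ((e0⁻¹ * e * e0 : ↥E) : G) * r) * h0 := by
        rw [hr'e]; simp [mul_assoc]
      rw [h1, Subgroup.mul_mem_cancel_right _ hh0m, Subgroup.mul_mem_cancel_left _ (inv_mem hh0m), ← mem_CS, ← mem_CS,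
        ← cls_eq_one d hzC, ← cls_eq_one d hzC]
      rw [map_mul, map_mul, map_inv, inv_mul_cancel_comm]
    let ι : WS z E r →* WS z E r' := QuotientGroup.map (CB z E r) (CB z E r') (MonoidHom.id _)
      (by rw [Subgroup.comap_id, CB, CB, hCeq])
    have hι : ∀ e, ι (cls z E r e) = cls z E r' e := fun e => rfl
    let σ : WS z E r → WS z E r' := fun w => ι w * cls z E r' e0
    have hσ : ∀ u v, σ (u * v) = σ u * σ v * σ 1 := fun u v => by
      have hsq := WS_sq d H.hz r' (cls z E r' e0)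
      simp only [σ, map_mul, map_one, one_mul]
      calc ι u * ι v * cls z E r' e0 = ι u * ι v * cls z E r' e0 * (cls z E r' e0 * cls z E r' e0) := by
            rw [hsq, mul_one]
        _ = _ := by ac_rfl
    let c : WS z E r → ↥E := fun w => (F w)⁻¹ * (F' (σ w) * e0)
    have hcQ : Quad d c := quad_mul d H.hz (quad_inv d H.hz hF)
      (quad_mul d H.hz (quad_comp d hF' hσ H.hz) (quad_const d H.hz e0))
    have hcC : ∀ w, c w ∈ CS z E r := by
      intro w
      have h1 : cls z E r' (c w) = 1 := by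
        simp only [c, map_mul, map_inv, hFs']
        rw [← hι (F w), hFs]
        simp only [σ]
        rw [mul_assoc (ι w), WS_sq d H.hz, mul_one, inv_mul_cancel]
      rw [← hCeq]; exact (cls_eq_one d hzC').mp h1
    have hterm : ∀ w, s.ext ((t (pt w))⁻¹ * t' (pt w)) = s.th E r ⟨c w, hcC w⟩ * s.ext h0 := by
      intro w
      have hp' : (((F' (σ w) : G) * r' : G) : G ⧸ Cz z) = pt w := by
        rw [eq_comm, QuotientGroup.eq]
        rw [show ((F w : G) * r)⁻¹ * ((F' (σ w) : G) * r') = r⁻¹ * (c w : G) * r * h0 from by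
          rw [hr'e]; simp [c, mul_assoc]]
        exact mul_mem (hcC w) hh0m
      have e1 : t (pt w) = (F w : G) * r := hFt w
      have e2 : t' (pt w) = (F' (σ w) : G) * r' := by rw [← hp']; exact hFt' _
      rw [e1, e2, show ((F w : G) * r)⁻¹ * ((F' (σ w) : G) * r') = r⁻¹ * (c w : G) * r * h0 from by
          rw [hr'e]; simp [c, mul_assoc], s.ext_mul (hcC w) hh0m]
      rfl
    haveI := Fintype.ofFinite (WS z E r)
    have hPim : P = Finset.univ.image pt := by
      rw [hP]; ext p; simp [pt]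
    rw [hPim, Finset.prod_image (fun a _ b _ h => hpt h)]
    simp only [hterm]
    have hcard := card_WS H hr hzC s
    rw [Nat.card_eq_fintype_card] at hcard
    have heven : Even (Fintype.card (WS z E r)) := by
      have hpg : IsPGroup 2 (WS z E r) := fun w => ⟨1, by rw [pow_one, pow_two]; exact WS_sq d H.hz r w⟩
      obtain ⟨k, hk⟩ := IsPGroup.iff_card.mp hpg
      rw [Nat.card_eq_fintype_card] at hk
      rw [hk]
      refine Nat.even_pow.mpr ⟨even_two, fun h0 => ?_⟩
      rw [h0] at hk; omega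
    rw [Finset.prod_mul_distrib, Finset.prod_const, Finset.card_univ, sign_pow_even (s.ext_sq _) heven, mul_one]
    exact prod_sign d (WS_sq d H.hz r) (CS z E r) hzC (s.th E r) (fun c => s.ext_sq _)
      (fun w => ⟨c w, hcC w⟩) hcQ hcard

theorem good2_smul (H : Hyp z E zE) {x : G} (hx : x ∈ Cz z) {P : Finset (G ⧸ Cz z)} {t : G ⧸ Cz z → G}
    (h : Good2 zE H.d P t) : Good2 zE H.d (P.image (x • ·)) (fun p => x * t (x⁻¹ • p)) := by
  have d := H.d
  have hxz : x * z = z * x := Setup.mem.mp hx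
  obtain ⟨ht, h⟩ := h
  refine ⟨fun p hp => ?_, ?_⟩
  · obtain ⟨q, hq, rfl⟩ := Finset.mem_image.mp hp
    show ((x * t (x⁻¹ • x • q) : G) : G ⧸ Cz z) = _
    rw [inv_smul_smul, ← smul_eq_mul, ← MulAction.Quotient.smul_coe, ht q hq]
  rcases h with h | ⟨r, hr, hzC, F, hF, hFs, hP, hFt⟩
  · left
    intro p hp
    obtain ⟨q, hq, rfl⟩ := Finset.mem_image.mp hp
    obtain ⟨h1, h2, h3⟩ := h q hq
    have hc : z • x • q = x • z • q := by rw [smul_smul, smul_smul, hxz]
    refine ⟨by rw [hc]; exact Finset.mem_image_of_mem _ h1, fun he => h2 (smul_left_cancel x (hc.symm.trans he)), ?_⟩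
    show x * t (x⁻¹ • z • x • q) = z * (x * t (x⁻¹ • x • q))
    rw [hc, inv_smul_smul, inv_smul_smul, h3, ← mul_assoc, hxz, mul_assoc]
  · right
    have hCS : ∀ e : ↥E, e ∈ CS z E (x * r) ↔
        (⟨x⁻¹ * e * x, by simpa using H.S.norm x⁻¹ (inv_mem hx) e e.2⟩ : ↥E) ∈ CS z E r := fun e => by
      rw [mem_CS, mem_CS]; simp [mul_assoc]
    let cj : ↥E →* ↥E :=
      { toFun := fun a => ⟨x * a * x⁻¹, H.S.norm x hx a a.2⟩
        map_one' := Subtype.ext (by simp)
        map_mul' := fun _ _ => Subtype.ext (by simp [mul_assoc]) }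
    let ci : ↥E →* ↥E :=
      { toFun := fun a => ⟨x⁻¹ * a * x, by simpa using H.S.norm x⁻¹ (inv_mem hx) a a.2⟩
        map_one' := Subtype.ext (by simp)
        map_mul' := fun _ _ => Subtype.ext (by simp [mul_assoc]) }
    have hci : ∀ a, ci (cj a) = a := fun a => Subtype.ext (by simp [ci, cj, mul_assoc])
    have hic : ∀ a, cj (ci a) = a := fun a => Subtype.ext (by simp [ci, cj, mul_assoc])
    have hzC' : zE ∈ CS z E (x * r) := by
      rw [hCS]
      convert hzC using 1
      apply Subtype.ext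
      show x⁻¹ * (zE : G) * x = zE
      rw [H.hzz, mul_assoc, ← hxz]; simp
    let ι : WS z E (x * r) →* WS z E r := QuotientGroup.map _ _ (Abelianization.map ci) (by
      rintro _ ⟨c, hc, rfl⟩
      exact ⟨ci c, (hCS c).mp hc, (Abelianization.map_of _ _).symm⟩)
    have hι : ∀ a, ι (cls z E (x * r) a) = cls z E r (ci a) := fun a => rfl
    let κ : WS z E r →* WS z E (x * r) := QuotientGroup.map _ _ (Abelianization.map cj) (by
      rintro _ ⟨c, hc, rfl⟩
      exact ⟨cj c, (hCS _).mpr (show ci (cj c) ∈ CS z E r by rw [hci]; exact hc), (Abelianization.map_of _ _).symm⟩)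
    have hκ : ∀ a, κ (cls z E r a) = cls z E (x * r) (cj a) := fun a => rfl
    have hxzE : cj zE = zE := Subtype.ext (by show x * (zE : G) * x⁻¹ = zE; rw [H.hzz, hxz]; simp)
    have hcjZ : ∀ a ∈ zpowers zE, cj a = a := fun a ha => by
      rcases zcases d ha with rfl | rfl
      · exact map_one cj
      · exact hxzE
    have hQ0 := quad_comp d hF (σ := ι) (fun u v => by rw [map_mul, map_one, mul_one]) H.hz
    have hQ : Quad d (fun w => cj (F (ι w))) := by
      refine ⟨fun u v => ?_, fun v => ?_⟩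
      · have := congrArg (Abelianization.map cj) (hQ0.1 u v)
        simpa [map_mul, Abelianization.map_of] using this
      · obtain ⟨b, ε, hε, hb⟩ := hQ0.2 v
        refine ⟨cj b, ε, hε, fun w => ?_⟩
        show cj (F (ι (w * v))) = _
        rw [show F (ι (w * v)) = F (ι w) * b * ε w from hb w, map_mul, map_mul, hcjZ _ (hε.1 w)]
    refine ⟨x * r, fun hh => hr ((Subgroup.mul_mem_cancel_left _ hx).mp hh), hzC', fun w => cj (F (ι w)), hQ,
      fun w => ?_, ?_, fun w => ?_⟩
    · rw [← hκ, hFs]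
      obtain ⟨a, rfl⟩ := cls_surj _ w
      rw [hι, hκ, hic]
    · ext p
      simp only [Finset.mem_image, Finset.mem_filter, Finset.mem_univ, true_and, hP]
      constructor
      · rintro ⟨q, ⟨w, rfl⟩, rfl⟩
        refine ⟨κ w, ?_⟩
        obtain ⟨a, rfl⟩ := cls_surj _ w
        rw [hκ, hι, hci, MulAction.Quotient.smul_coe, smul_eq_mul]
        congr 1
        simp [cj, mul_assoc]
      · rintro ⟨w, rfl⟩
        refine ⟨_, ⟨ι w, rfl⟩, ?_⟩
        rw [MulAction.Quotient.smul_coe, smul_eq_mul]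
        congr 1
        simp [cj, mul_assoc]
    · show x * t (x⁻¹ • ((((cj (F (ι w)) : ↥E) : G) * (x * r) : G) : G ⧸ Cz z)) = _
      rw [MulAction.Quotient.smul_coe, smul_eq_mul,
        show x⁻¹ * (((cj (F (ι w)) : ↥E) : G) * (x * r)) = (F (ι w) : G) * r from by simp [cj, mul_assoc], hFt]
      simp [cj, mul_assoc]

theorem exists_good2 (H : Hyp z E zE) {p0 : G ⧸ Cz z} (hp0 : p0 ≠ ((1 : G) : G ⧸ Cz z)) :
    ∃ t, Good2 zE H.d (orbit ↥E p0).toFinset t := by
  have d := H.d
  set P := (orbit ↥E p0).toFinset with hPdef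
  set r := p0.out with hrdef
  have hr : (r : G ⧸ Cz z) = p0 := p0.out_eq
  by_cases hzC : zE ∈ CS z E r
  · haveI : Finite (WS z E r) := Quotient.finite _
    obtain ⟨F, hF, hFs⟩ := exists_quad d H.hz (cls z E r) (cls_surj r) _ (WS z E r) le_rfl (WS_sq d H.hz r)
      (MonoidHom.id _)
    let t : G ⧸ Cz z → G := fun p =>
      if h : ∃ w, (((F w : G) * r : G) : G ⧸ Cz z) = p then (F h.choose : G) * r else 1
    have hPeq : P = Finset.univ.filter (fun p => ∃ w, (((F w : G) * r : G) : G ⧸ Cz z) = p) := by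
      ext p
      simp only [hPdef, Finset.mem_filter, Finset.mem_univ, true_and, mem_orbit_toFinset]
      constructor
      · rintro ⟨e, rfl⟩
        refine ⟨cls z E r e, ?_⟩
        rw [← hr, MulAction.Quotient.smul_coe, smul_eq_mul, mk_eq_iff, ← cls_eq_one d hzC, map_mul, map_inv, hFs]
        simp
      · rintro ⟨w, rfl⟩
        exact ⟨F w, by rw [← hr, MulAction.Quotient.smul_coe, smul_eq_mul]⟩
    refine ⟨t, fun p hp => ?_, Or.inr ⟨r, ?_, hzC, F, hF, hFs, hPeq, fun w => ?_⟩⟩
    · rw [hPeq] at hp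
      have hex := (Finset.mem_filter.mp hp).2
      simp only [t, dif_pos hex]
      exact hex.choose_spec
    · intro hh
      refine hp0 ?_
      rw [← hr, QuotientGroup.eq]; simpa using inv_mem hh
    · have hex : ∃ w', (((F w' : G) * r : G) : G ⧸ Cz z) = (((F w : G) * r : G) : G ⧸ Cz z) := ⟨w, rfl⟩
      simp only [t, dif_pos hex]
      have := (cls_eq_one d hzC).mpr ((mk_eq_iff _ _).mp hex.choose_spec)
      rw [map_mul, map_inv, hFs, hFs, inv_mul_eq_one] at this
      simp only [MonoidHom.id_apply] at this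
      rw [this]
  · have hmv : ∀ p ∈ P, z • p ∈ P ∧ z • p ≠ p := by
      intro p hp
      obtain ⟨e, rfl⟩ := mem_orbit_toFinset.mp hp
      refine ⟨mem_orbit_toFinset.mpr ⟨zE * e, by rw [Subgroup.coe_mul, H.hzz, mul_smul]⟩, fun he => hzC ?_⟩
      rw [← moved_iff H r, hr]
      rw [smul_smul, show z * (e : G) = e * z from by rw [← H.hzz]; exact congrArg Subtype.val (d.commute e), mul_smul] at he
      exact smul_left_cancel _ he
    let ν := Fintype.equivFin (G ⧸ Cz z)
    let t : G ⧸ Cz z → G := fun p => if ν p ≤ ν (z • p) then p.out else z * (z • p).out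
    refine ⟨t, fun p hp => ?_, Or.inl fun p hp => ⟨(hmv p hp).1, (hmv p hp).2, ?_⟩⟩
    · simp only [t]; split
      · exact p.out_eq
      · rw [← smul_eq_mul, ← MulAction.Quotient.smul_coe, QuotientGroup.out_eq', smul_smul, H.S.zsq, one_smul]
    · have hzz : z • z • p = p := by rw [smul_smul, H.S.zsq, one_smul]
      have hne : ν p ≠ ν (z • p) := fun h => (hmv p hp).2 (ν.injective h).symm
      simp only [t, hzz]
      rcases lt_or_gt_of_ne hne with h | h
      · rw [if_pos h.le, if_neg (not_le.mpr h)]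
      · rw [if_pos h.le, if_neg (not_le.mpr h), ← mul_assoc, H.S.zsq, one_mul]

/-- The transfer of a sign restricts to the sign on the centralizer. -/
theorem transfer_eq_of_weakly_closed (H : Hyp z E zE) (s : Char2 z) (x : ↥(Subgroup.centralizer ({z} : Set G))) :
    MonoidHom.transfer s.ψ (x : G) = s.ψ x := by
  letI : Fintype (G ⧸ Cz z) := Subgroup.fintypeQuotientOfFiniteIndex
  let orb : G ⧸ Cz z → Finset (G ⧸ Cz z) := fun p => (orbit ↥E p).toFinset
  let base : G ⧸ Cz z := ((1 : G) : G ⧸ Cz z)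
  have hfix : ∀ h ∈ Cz z, h • base = base := fun h hh => by
    show h • ((1 : G) : G ⧸ Cz z) = _
    rw [MulAction.Quotient.smul_coe, smul_eq_mul, mul_one, QuotientGroup.eq]
    simpa using inv_mem hh
  have horb : ∀ p q : G ⧸ Cz z, q ∈ orb p → orb q = orb p := fun p q h => by
    simp only [orb, Set.toFinset_inj]
    exact orbit_eq_iff.mpr (Set.mem_toFinset.mp h)
  have hne : ∀ p, p ≠ base → ∀ q ∈ orb p, q ≠ base := by
    intro p hp q hq hqb
    obtain ⟨e, he⟩ := mem_orbit_toFinset.mp hq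
    exact hp (by rw [← inv_smul_smul (e : G) p, he, hqb, hfix _ (inv_mem (H.S.le e.2))])
  have hch : ∀ P : Finset (G ⧸ Cz z), ∃ t : G ⧸ Cz z → G, ∀ p, p ≠ base → P = orb p → Good2 zE H.d P t := by
    intro P
    by_cases h : ∃ p, p ≠ base ∧ P = orb p
    · obtain ⟨p, hp, rfl⟩ := h
      obtain ⟨t, ht⟩ := exists_good2 H hp
      exact ⟨t, fun _ _ _ => ht⟩
    · exact ⟨fun _ => 1, fun p hp hpe => absurd ⟨p, hp, hpe⟩ h⟩
  choose tt htt using hch
  let t : G ⧸ Cz z → G := fun p => if p = base then 1 else tt (orb p) p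
  have heq : ∀ p, p ≠ base → ∀ q ∈ orb p, t q = tt (orb p) q := fun p hp q hq => by
    simp only [t, if_neg (hne p hp q hq), horb p q hq]
  have hself : ∀ p, p ∈ orb p := fun p => Set.mem_toFinset.mpr (mem_orbit_self p)
  have htgood : ∀ p, p ≠ base → Good2 zE H.d (orb p) t := fun p hp => by
    obtain ⟨h1, h2⟩ := htt (orb p) p hp rfl
    refine ⟨fun q hq => by rw [heq p hp q hq]; exact h1 q hq, h2.imp (fun h2 q hq => ?_) ?_⟩
    · obtain ⟨a, b, c⟩ := h2 q hq
      exact ⟨a, b, by rw [heq p hp q hq, heq p hp _ a]; exact c⟩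
    · rintro ⟨r, a1, a2, F, a3, a4, a5, a6⟩
      refine ⟨r, a1, a2, F, a3, a4, a5, fun w => ?_⟩
      rw [heq p hp _ (by rw [a5]; exact Finset.mem_filter.mpr ⟨Finset.mem_univ _, w, rfl⟩)]
      exact a6 w
  have hsec : ∀ p, ((t p : G) : G ⧸ Cz z) = p := fun p => by
    by_cases hp : p = base
    · simp [t, hp, base]
    · exact (htgood p hp).1 p (hself p)
  let T : (Cz z).LeftTransversal := ⟨Set.range t, Subgroup.isComplement_range_left hsec⟩
  have hT : ∀ q, ((T.2.leftQuotientEquiv q : T.1) : G) = t q := fun q =>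
    Subgroup.IsComplement.leftQuotientEquiv_apply hsec q
  let φ : G ⧸ Cz z → ℂˣ := fun q => s.ext ((t q)⁻¹ * ((x : G) * t ((x : G)⁻¹ • q)))
  have htr : MonoidHom.transfer s.ψ (x : G) = ∏ q, φ q := by
    rw [MonoidHom.transfer_def s.ψ T]
    unfold Subgroup.leftTransversals.diff
    dsimp only
    refine Fintype.prod_congr _ _ fun q => ?_
    simp only [φ, Char2.ext]
    rw [dif_pos]
    swap
    · refine QuotientGroup.eq.mp ((hsec q).trans ?_)
      rw [← smul_eq_mul, ← MulAction.Quotient.smul_coe, hsec, smul_inv_smul]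
    congr 1
    apply Subtype.ext
    simp only [Subgroup.smul_apply_eq_smul_apply_inv_smul, hT, smul_eq_mul]
  rw [htr, ← Finset.mul_prod_erase Finset.univ φ (Finset.mem_univ base)]
  have hb : φ base = s.ψ x := by
    simp only [φ, hfix _ (inv_mem x.2), t, if_true, inv_one, one_mul, mul_one, Char2.ext, dif_pos x.2]
  rw [hb, mul_eq_left, ← Finset.prod_fiberwise_of_maps_to (g := orb) (t := (Finset.univ.erase base).image orb)
    (fun q hq => Finset.mem_image_of_mem orb hq)]
  refine Finset.prod_eq_one fun P hPm => ?_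
  obtain ⟨p, hp, rfl⟩ := Finset.mem_image.mp hPm
  have hp' : p ≠ base := (Finset.mem_erase.mp hp).1
  have hfib : (Finset.univ.erase base).filter (fun q => orb q = orb p) = orb p := by
    ext q
    simp only [Finset.mem_filter, Finset.mem_erase, Finset.mem_univ, and_true]
    exact ⟨fun h => h.2 ▸ hself q, fun h => ⟨hne p hp' q h, horb p q h⟩⟩
  rw [hfib]
  refine good2_diff H s (htgood p hp') ?_
  let p' : G ⧸ Cz z := (x : G)⁻¹ • p
  have hp'' : p' ≠ base := fun h => hp' (by rw [← smul_inv_smul (x : G) p, show (x : G)⁻¹ • p = base from h, hfix _ x.2])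
  have himg : (orb p').image ((x : G) • ·) = orb p := by
    ext q
    simp only [Finset.mem_image, orb, mem_orbit_toFinset]
    constructor
    · rintro ⟨w, ⟨e, rfl⟩, rfl⟩
      refine ⟨⟨(x : G) * e * (x : G)⁻¹, H.S.norm _ x.2 _ e.2⟩, ?_⟩
      simp [p', smul_smul, mul_assoc]
    · rintro ⟨e, rfl⟩
      refine ⟨_, ⟨⟨(x : G)⁻¹ * e * (x : G), by simpa using H.S.norm _ (inv_mem x.2) _ e.2⟩, rfl⟩, ?_⟩
      simp [p', smul_smul, mul_assoc]
  show Good2 zE H.d (orb p) _
  rw [← himg]
  exact good2_smul H x.2 (htgood p' hp'')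

end Cfsg.Agent.Lib.ExtraTransfer
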