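import Cfsg.Agent.Lib.ExtraTransfer.Core
import Cfsg.Agent.Lib.Thompson.ExtraspecialBasis

/-! Quadratic sections of an extraspecial group and the parity of transfer terms. -/
set_option autoImplicit false
set_option linter.unusedSectionVars false

open scoped Classical commutatorElement
open MulAction Subgroup

namespace Cfsg.Agent.Lib.ExtraTransfer

open Cfsg.Agent.Lib.Thompson.Extra

section Abs

variable {E : Type*} [Group E] {zE : E} (d : Data 2 zE)
variable {W : Type*} [CommGroup W]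

theorem zcases (d : Data 2 zE) {w : E} (hw : w ∈ zpowers zE) : w = 1 ∨ w = zE := by
  obtain ⟨i, rfl⟩ := hw
  show zE ^ i = 1 ∨ zE ^ i = zE
  rw [show zE ^ i = zE ^ (i % 2) from by rw [← zpow_mod_orderOf, d.ord]; norm_num]
  rcases Int.emod_two_eq_zero_or_one i with h | h <;> simp [h]

theorem zmul_self (d : Data 2 zE) {w : E} (hw : w ∈ zpowers zE) : w * w = 1 := by
  rcases zcases d hw with rfl | rfl
  · simp
  · rw [← pow_two, ← d.ord, pow_orderOf_eq_one]

theorem zcomm (d : Data 2 zE) {w : E} (hw : w ∈ zpowers zE) (g : E) : w * g = g * w := by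
  rcases zcases d hw with rfl | rfl
  · simp
  · exact d.commute g

theorem zne (d : Data 2 zE) : zE ≠ 1 := fun h => by have := d.ord; rw [h, orderOf_one] at this; omega

/-- affine modulo the commutator subgroup. -/
def AffE (F : W → E) : Prop :=
  ∀ u v, Abelianization.of (F (u * v)) =
    Abelianization.of (F u) * Abelianization.of (F v) * Abelianization.of (F 1)

/-- affine central sign. -/
def AffZ (d : Data 2 zE) (ε : W → E) : Prop :=
  (∀ w, ε w ∈ zpowers zE) ∧ ∀ u v, ε (u * v) = ε u * ε v * ε 1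

/-- quadratic map. -/
def Quad (d : Data 2 zE) (F : W → E) : Prop :=
  AffE F ∧ ∀ v, ∃ b : E, ∃ ε : W → E, AffZ d ε ∧ ∀ w, F (w * v) = F w * b * ε w

theorem ab_sq' (d : Data 2 zE) (hz : zE ∈ commutator E) (w : Abelianization E) : w * w = 1 := by
  obtain ⟨e, rfl⟩ := QuotientGroup.mk_surjective w
  change Abelianization.of e * Abelianization.of e = 1
  rw [← map_mul, ← pow_two]
  exact (QuotientGroup.eq_one_iff _).mpr (zpowers_le.mpr hz (d.pow e))

theorem comm_le (d : Data 2 zE) : commutator E ≤ zpowers zE := by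
  rw [commutator_def, Subgroup.commutator_le]
  exact fun a _ b _ => d.comm a b

theorem of_eq_iff (d : Data 2 zE) (hz : zE ∈ commutator E) {a b : E} :
    Abelianization.of a = Abelianization.of b ↔ a⁻¹ * b ∈ zpowers zE := by
  refine QuotientGroup.eq.trans ?_
  exact ⟨fun h => comm_le d h, fun h => zpowers_le.mpr hz h⟩

theorem affZ_mul {ε ε' : W → E} (h : AffZ d ε) (h' : AffZ d ε') : AffZ d (fun w => ε w * ε' w) := by
  refine ⟨fun w => mul_mem (h.1 w) (h'.1 w), fun u v => ?_⟩
  show ε (u * v) * ε' (u * v) = _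
  rw [h.2, h'.2]
  have c1 := fun w g => zcomm d (h.1 w) g
  have c2 := fun w g => zcomm d (h'.1 w) g
  rcases zcases d (h.1 u) with a | a <;> rcases zcases d (h.1 v) with b | b <;> rcases zcases d (h.1 1) with c | c <;>
    simp only [a, b, c, one_mul, mul_one, mul_assoc] <;>
    rcases zcases d (h'.1 u) with a' | a' <;> rcases zcases d (h'.1 v) with b' | b' <;>
    rcases zcases d (h'.1 1) with c' | c' <;> simp [a', b', c']

theorem affZ_const {k : E} (hk : k ∈ zpowers zE) : AffZ d (fun _ : W => k) :=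
  ⟨fun _ => hk, fun _ _ => by simp [zmul_self d hk]⟩

theorem affZ_hom (hz : zE ∈ commutator E) {y : W → E} (hy : AffE y) (b : E) :
    AffZ d (fun w => d.hom b (y w)) := by
  refine ⟨fun w => d.comm _ _, fun u v => ?_⟩
  have h1 : Abelianization.of (y (u * v)) = Abelianization.of (y u * y v * y 1) := by
    rw [map_mul, map_mul]; exact hy u v
  have hk := (of_eq_iff d hz).mp h1.symm
  have h2 : d.hom b ((y u * y v * y 1)⁻¹ * y (u * v)) = 1 := by
    rw [d.hom_apply]
    exact commutatorElement_eq_one_iff_mul_comm.mpr (zcomm d hk b)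
  rw [map_mul, map_inv, inv_mul_eq_one] at h2
  show d.hom b (y (u * v)) = d.hom b (y u) * d.hom b (y v) * d.hom b (y 1)
  rw [← h2, map_mul, map_mul]

theorem quad_mul (hz : zE ∈ commutator E) {F F' : W → E} (h : Quad d F) (h' : Quad d F') :
    Quad d (fun w => F w * F' w) := by
  refine ⟨fun u v => ?_, fun v => ?_⟩
  · simp only [map_mul]
    rw [h.1 u v, h'.1 u v]
    ac_rfl
  · obtain ⟨b, ε, hε, hb⟩ := h.2 v
    obtain ⟨b', ε', hε', hb'⟩ := h'.2 v
    have hinv : AffE (fun w => (F' w)⁻¹) := fun u v => by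
      simp only [map_inv]; rw [h'.1 u v, mul_inv, mul_inv]
    refine ⟨b * b', fun w => ε w * ε' w * d.hom b⁻¹ (F' w)⁻¹, affZ_mul d (affZ_mul d hε hε') (affZ_hom d hz hinv _),
      fun w => ?_⟩
    show F (w * v) * F' (w * v) = _
    rw [hb, hb']
    have hk : d.hom b⁻¹ (F' w)⁻¹ = ⁅b⁻¹, (F' w)⁻¹⁆ := by
      rw [d.hom_apply, ← commutatorElement_inv]
      exact (eq_inv_of_mul_eq_one_left (zmul_self d (d.comm _ _))).symm
    have hswap : b * F' w = F' w * b * d.hom b⁻¹ (F' w)⁻¹ := by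
      rw [hk, commutatorElement_def]; simp [mul_assoc]
    have hkZ : d.hom b⁻¹ (F' w)⁻¹ ∈ zpowers zE := d.comm _ _
    calc F w * b * ε w * (F' w * b' * ε' w) = F w * (b * F' w) * b' * (ε w * ε' w) := by
          rw [show F w * b * ε w * (F' w * b' * ε' w) = F w * b * (ε w * (F' w * b')) * ε' w from by simp [mul_assoc],
            zcomm d (hε.1 w) (F' w * b')]
          simp [mul_assoc]
      _ = F w * F' w * b * (d.hom b⁻¹ (F' w)⁻¹ * (b' * (ε w * ε' w))) := by rw [hswap]; simp [mul_assoc]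
      _ = _ := by rw [zcomm d hkZ]; simp [mul_assoc]

theorem quad_inv (hz : zE ∈ commutator E) {F : W → E} (h : Quad d F) : Quad d (fun w => (F w)⁻¹) := by
  refine ⟨fun u v => ?_, fun v => ?_⟩
  · simp only [map_inv]; rw [h.1 u v, mul_inv, mul_inv]
  · obtain ⟨b, ε, hε, hb⟩ := h.2 v
    refine ⟨b⁻¹, fun w => ε w * d.hom b (F w), affZ_mul d hε (affZ_hom d hz h.1 _), fun w => ?_⟩
    show (F (w * v))⁻¹ = _
    rw [hb]
    have hkZ : d.hom b (F w) ∈ zpowers zE := d.comm _ _
    have hk : d.hom b (F w) = ⁅b, F w⁆ := by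
      rw [d.hom_apply, ← commutatorElement_inv]
      exact (eq_inv_of_mul_eq_one_left (zmul_self d (d.comm _ _))).symm
    have he : (ε w)⁻¹ = ε w := inv_eq_of_mul_eq_one_right (zmul_self d (hε.1 w))
    calc (F w * b * ε w)⁻¹ = ε w * (b⁻¹ * (F w)⁻¹) := by simp [he, mul_assoc]
      _ = b⁻¹ * (F w)⁻¹ * ε w := zcomm d (hε.1 w) _
      _ = (F w)⁻¹ * (d.hom b (F w))⁻¹⁻¹ * b⁻¹ * ε w := by
          rw [inv_inv, ← zcomm d hkZ (F w)⁻¹, mul_assoc (d.hom b (F w)), zcomm d hkZ, hk, commutatorElement_def]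
          simp [mul_assoc]
      _ = _ := by
          show _ = (F w)⁻¹ * b⁻¹ * (ε w * d.hom b (F w))
          rw [inv_inv, mul_assoc ((F w)⁻¹), zcomm d hkZ b⁻¹, zcomm d (hε.1 w) (d.hom b (F w))]
          simp [mul_assoc]

theorem quad_const (hz : zE ∈ commutator E) (c : E) : Quad d (fun _ : W => c) := by
  refine ⟨fun _ _ => ?_, fun v => ⟨1, fun _ => 1, affZ_const d (one_mem _), fun w => by simp⟩⟩
  rw [mul_assoc, ab_sq' d hz, mul_one]

theorem quad_comp {W' : Type*} [CommGroup W'] {F : W → E} (h : Quad d F) {σ : W' → W}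
    (hσ : ∀ u v, σ (u * v) = σ u * σ v * σ 1) (hz : zE ∈ commutator E) : Quad d (fun w => F (σ w)) := by
  refine ⟨fun u v => ?_, fun v => ?_⟩
  · show Abelianization.of (F (σ (u * v))) = _
    rw [hσ, h.1, h.1 (σ u) (σ v)]
    have hsq := ab_sq' d hz (Abelianization.of (F 1))
    calc _ = Abelianization.of (F (σ u)) * Abelianization.of (F (σ v)) * Abelianization.of (F (σ 1)) *
          (Abelianization.of (F 1) * Abelianization.of (F 1)) := by ac_rfl
      _ = _ := by rw [hsq, mul_one]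
  · obtain ⟨b, ε, hε, hb⟩ := h.2 (σ v * σ 1)
    refine ⟨b, fun w => ε (σ w), ⟨fun w => hε.1 _, fun u v => ?_⟩, fun w => ?_⟩
    · show ε (σ (u * v)) = _
      rw [hσ, hε.2, hε.2 (σ u) (σ v)]
      rcases zcases d (hε.1 1) with h1 | h1 <;> simp only [h1, mul_one, one_mul]
      calc ε (σ u) * ε (σ v) * zE * ε (σ 1) * zE = ε (σ u) * ε (σ v) * (zE * (ε (σ 1) * zE)) := by simp [mul_assoc]
        _ = _ := by rw [← zcomm d (mem_zpowers zE) (ε (σ 1)), ← mul_assoc zE, zmul_self d (mem_zpowers zE), one_mul]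
    · show F (σ (w * v)) = _
      rw [hσ, mul_assoc]; exact hb _

theorem sign_cases (hW : ∀ w : W, w * w = 1) (χ : W →* ℂˣ) (w : W) : χ w = 1 ∨ χ w = -1 := by
  have h : ((χ w : ℂˣ) : ℂ) * (χ w : ℂˣ) = 1 := by rw [← Units.val_mul, ← map_mul, hW, map_one]; rfl
  rcases mul_self_eq_one_iff.mp h with h | h
  · exact Or.inl (Units.ext h)
  · exact Or.inr (Units.ext (by simpa using h))

theorem neg_one_ne : (-1 : ℂˣ) ≠ 1 := fun h => by
  have := congrArg Units.val h
  norm_num at this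

theorem quad_letter (hz : zE ∈ commutator E) (hW : ∀ w : W, w * w = 1) (χ : W →* ℂˣ) (a : E) :
    Quad d (fun w => if χ w = 1 then 1 else a) := by
  have hsq : Abelianization.of a * Abelianization.of a = 1 := ab_sq' d hz _
  refine ⟨fun u v => ?_, fun v => ?_⟩
  · show Abelianization.of (if χ (u * v) = 1 then 1 else a) = _
    rcases sign_cases hW χ u with h | h <;> rcases sign_cases hW χ v with h' | h' <;>
      simp [h, h', neg_one_ne, hsq]
  · rcases sign_cases hW χ v with h | h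
    · exact ⟨1, fun _ => 1, affZ_const d (one_mem _), fun w => by simp [h]⟩
    · have haa : (a * a)⁻¹ ∈ zpowers zE := inv_mem (by rw [← pow_two]; exact d.pow a)
      refine ⟨a, fun w => if χ w = 1 then 1 else (a * a)⁻¹, ⟨fun w => ?_, fun u w => ?_⟩, fun w => ?_⟩
      · dsimp only; split
        · exact one_mem _
        · exact haa
      · have hk := zmul_self d haa
        dsimp only
        rcases sign_cases hW χ u with h1 | h1 <;> rcases sign_cases hW χ w with h2 | h2 <;>
          simp only [map_mul, map_one, h1, h2, neg_one_ne, mul_neg, neg_neg, mul_one, one_mul, if_true, if_false, hk]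
      · rcases sign_cases hW χ w with h' | h' <;> simp [h, h', neg_one_ne, mul_assoc]

/-- Existence of quadratic lifts. -/
theorem exists_quad.{u} (d : Data 2 zE) (hz : zE ∈ commutator E) {Q : Type*} [CommGroup Q] (q : E →* Q)
    (hq : Function.Surjective q) (n : ℕ) : ∀ (W : Type u) [CommGroup W] [Finite W], Nat.card W ≤ n →
      (∀ w : W, w * w = 1) → ∀ φ : W →* Q, ∃ F : W → E, Quad d F ∧ ∀ w, q (F w) = φ w := by
  induction n with
  | zero =>
    intro W _ _ hn
    exact absurd hn (by have := Nat.card_pos (α := W); omega)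
  | succ n ih =>
    intro W _ _ hn hW φ
    by_cases htriv : ∀ w : W, w = 1
    · exact ⟨fun _ => 1, quad_const d hz 1, fun w => by rw [htriv w, map_one, map_one]⟩
    push Not at htriv
    obtain ⟨v, hv⟩ := htriv
    obtain ⟨χ, hχ⟩ := CommGroup.exists_apply_ne_one_of_hasEnoughRootsOfUnity W ℂ hv
    have hχv : χ v = -1 := (sign_cases hW χ v).resolve_left hχ
    let π : W →* ↥χ.ker :=
      { toFun := fun w => if h : χ w = 1 then ⟨w, h⟩ else
          ⟨w * v, by rw [MonoidHom.mem_ker, map_mul, (sign_cases hW χ w).resolve_left h, hχv]; simp⟩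
        map_one' := by rw [dif_pos (map_one χ)]; rfl
        map_mul' := fun x y => by
          apply Subtype.ext
          rcases sign_cases hW χ x with h | h <;> rcases sign_cases hW χ y with h' | h' <;>
            simp only [map_mul, h, h', mul_neg, neg_neg, mul_one, one_mul, neg_one_ne, dif_pos, dif_neg,
              not_false_iff, Subgroup.coe_mul]
          · rw [mul_assoc]
          · rw [mul_right_comm]
          · rw [mul_mul_mul_comm, hW v, mul_one] }
    have hlt : Nat.card ↥χ.ker ≤ n := by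
      have : Nat.card ↥χ.ker < Nat.card W := by
        refine lt_of_le_of_ne (Nat.le_of_dvd Nat.card_pos χ.ker.card_subgroup_dvd_card) fun h => hχ ?_
        exact (χ.ker.eq_top_of_card_eq h).ge (mem_top v)
      omega
    obtain ⟨F', hF', hq'⟩ := ih ↥χ.ker hlt (fun w => Subtype.ext (hW w)) (φ.comp χ.ker.subtype)
    obtain ⟨a, ha⟩ := hq (φ v)
    refine ⟨fun w => F' (π w) * (if χ w = 1 then 1 else a),
      quad_mul d hz (quad_comp d hF' (fun u w => by rw [map_mul, map_one, mul_one]) hz) (quad_letter d hz hW χ a),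
      fun w => ?_⟩
    show q (F' (π w) * _) = φ w
    rw [map_mul, hq']
    show φ (π w : W) * _ = φ w
    rcases sign_cases hW χ w with h | h
    · simp [π, h]
    · simp [π, h, neg_one_ne, ha, mul_assoc, ← map_mul, hW]

/-- A quadratic function with values in a subgroup has trivial total sign. -/
theorem prod_sign [Fintype W] (hW : ∀ w : W, w * w = 1) (C : Subgroup E) (hzC : zE ∈ C) (θ : ↥C →* ℂˣ)
    (hθ : ∀ c, θ c * θ c = 1) (F : W → ↥C) (hF : Quad d (fun w => (F w : E)))
    (hcard : 8 ≤ Fintype.card W ∨ (4 ≤ Fintype.card W ∧ θ ⟨zE, hzC⟩ = 1)) : ∏ w, θ (F w) = 1 := by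
  obtain ⟨v, hv⟩ : ∃ v : W, v ≠ 1 := Fintype.exists_ne_of_one_lt_card (by omega) 1
  obtain ⟨χ, hχ⟩ := CommGroup.exists_apply_ne_one_of_hasEnoughRootsOfUnity W ℂ hv
  have hχv : χ v = -1 := (sign_cases hW χ v).resolve_left hχ
  obtain ⟨b, ε, hε, hb⟩ := hF.2 v
  simp only at hb
  have hεC : ∀ w, ε w ∈ C := fun w => zpowers_le.mpr hzC (hε.1 w)
  have hbC : b ∈ C := by
    have h := C.mul_mem (C.mul_mem (C.inv_mem (F 1).2) (F (1 * v)).2) (C.inv_mem (hεC 1))
    rwa [hb 1, show ((F 1 : E))⁻¹ * ((F 1 : E) * b * ε 1) * (ε 1)⁻¹ = b from by simp [mul_assoc]] at h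
  have hterm : ∀ w, θ (F w) * θ (F (w * v)) = θ ⟨b, hbC⟩ * θ ⟨ε w, hεC w⟩ := fun w => by
    rw [show F (w * v) = F w * ⟨b, hbC⟩ * ⟨ε w, hεC w⟩ from Subtype.ext (hb w), map_mul, map_mul, ← mul_assoc,
      ← mul_assoc, hθ, one_mul]
  let U := χ.ker
  have hbij : Function.Bijective (fun p : ↥U × Fin 2 => if p.2 = 0 then (p.1 : W) else (p.1 : W) * v) := by
    constructor
    · rintro ⟨x, i⟩ ⟨y, j⟩ h
      have h' := congrArg χ h
      have hx : χ x = 1 := x.2
      have hy : χ y = 1 := y.2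
      fin_cases i <;> fin_cases j <;> simp [hx, hy, hχv, neg_one_ne, Ne.symm neg_one_ne] at h h' ⊢ <;> exact h
    · intro w
      rcases sign_cases hW χ w with h | h
      · exact ⟨(⟨w, h⟩, 0), rfl⟩
      · exact ⟨(⟨w * v, by rw [MonoidHom.mem_ker, map_mul, h, hχv]; simp⟩, 1), by simp [mul_assoc, hW]⟩
  rw [← Fintype.prod_bijective _ hbij (fun p => θ (F (if p.2 = 0 then (p.1 : W) else (p.1 : W) * v))) _ fun _ => rfl,
    Fintype.prod_prod_type]
  simp only [Fin.prod_univ_two, if_true, show (1 : Fin 2) ≠ 0 from by decide, if_false, hterm]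
  have hU : Fintype.card W = Fintype.card ↥U * 2 := by
    rw [← Fintype.card_of_bijective hbij, Fintype.card_prod, Fintype.card_fin]
  rw [Finset.prod_mul_distrib, Finset.prod_const, Finset.card_univ]
  have hev : Even (Fintype.card ↥U) := by
    have hpg : IsPGroup 2 ↥U := fun w => ⟨1, by rw [pow_one, pow_two]; exact Subtype.ext (hW w)⟩
    obtain ⟨k, hk⟩ := IsPGroup.iff_card.mp hpg
    rw [Nat.card_eq_fintype_card] at hk
    rw [hk]
    refine Nat.even_pow.mpr ⟨even_two, fun h0 => ?_⟩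
    rw [h0] at hk
    omega
  rw [sign_pow_even (hθ _) hev, one_mul]
  rcases hcard with h8 | ⟨-, hz1⟩
  · let g : ↥U →* ℂˣ :=
      { toFun := fun u => θ ⟨ε u, hεC _⟩ * θ ⟨ε 1, hεC _⟩
        map_one' := hθ _
        map_mul' := fun x y => by
          have h2 : (⟨ε ((x : W) * y), hεC _⟩ : ↥C) = ⟨ε x, hεC _⟩ * ⟨ε y, hεC _⟩ * ⟨ε 1, hεC _⟩ :=
            Subtype.ext (hε.2 _ _)
          show θ ⟨ε ((x : W) * y), hεC _⟩ * _ = _
          rw [h2, map_mul, map_mul]
          ac_rfl }
    have hg : ∀ u : ↥U, θ ⟨ε u, hεC _⟩ = g u * θ ⟨ε 1, hεC _⟩ := fun u => by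
      show _ = θ ⟨ε u, hεC _⟩ * θ ⟨ε 1, hεC _⟩ * θ ⟨ε 1, hεC _⟩
      rw [mul_assoc, hθ, mul_one]
    simp only [hg]
    rw [Finset.prod_mul_distrib, Finset.prod_const, Finset.card_univ, sign_pow_even (hθ _) hev, mul_one,
      ← map_prod, prod_univ_eq_one (fun w => Subtype.ext (hW w)) (by omega), map_one]
  · refine Finset.prod_eq_one fun u _ => ?_
    rcases zcases d (hε.1 (u : W)) with h | h
    · rw [show (⟨ε u, hεC _⟩ : ↥C) = 1 from Subtype.ext h, map_one]
    · rw [show (⟨ε u, hεC _⟩ : ↥C) = ⟨zE, hzC⟩ from Subtype.ext h, hz1]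

end Abs

end Cfsg.Agent.Lib.ExtraTransfer
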